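import Cfsg.Agent.Mont.Std

/-! The normaliser `2^(2+11+22).(M24 × S3)` of a 2B-pure four-group in a group of Monster type. -/

set_option autoImplicit false

namespace Cfsg.Agent.MonL

open Subgroup Cfsg Cfsg.Spor Cfsg.Agent.TT Cfsg.Agent.LES Cfsg.Agent.Spor.Leech Cfsg.Agent.LES.Co
  Cfsg.Agent.Mont

variable {G : Type*} [Group G]

/-- A homomorphism onto a direct product from two commuting pieces. -/
theorem exists_hom_prod {N A B : Type*} [Group N] [Group A] [Group B] (X C : Subgroup N)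
    (α : C →* A) (β : N →* B) (hα : Function.Surjective α) (hβ : ∀ b, ∃ x ∈ X, β x = b)
    (hC : ∀ n, β n = 1 ↔ n ∈ C) (hXC : ∀ c : C, (c : N) ∈ X → α c = 1)
    (hcomm : ∀ x ∈ X, ∀ c c' : C, (c' : N) = x⁻¹ * c * x → α c' = α c) :
    ∃ f : N →* A × B, Function.Surjective f ∧ ∀ n, f n = 1 ↔ ∃ h : n ∈ C, α ⟨n, h⟩ = 1 := by
  let Rel : N → A → Prop := fun n a => ∃ x ∈ X, ∃ c : C, n = x * c ∧ α c = a
  have uniq : ∀ n a b, Rel n a → Rel n b → a = b := by
    rintro n _ _ ⟨x, hx, c, e, rfl⟩ ⟨x', hx', c', e', rfl⟩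
    rw [← mul_inv_eq_one, ← map_inv, ← map_mul]
    refine hXC _ ?_
    have : ((c * c'⁻¹ : C) : N) = x⁻¹ * x' := by
      rw [coe_mul, coe_inv, eq_inv_mul_iff_mul_eq, ← mul_assoc, ← e, e', mul_inv_cancel_right]
    rw [this]; exact mul_mem (inv_mem hx) hx'
  obtain ⟨γ, hγ⟩ := exists_hom_of_rel Rel (fun n => by
      obtain ⟨x, hx, e⟩ := hβ (β n)
      exact ⟨_, x, hx, ⟨x⁻¹ * n, (hC _).1 (by simp [e])⟩, by simp, rfl⟩) uniq (by
      rintro _ _ _ _ ⟨x, hx, c, rfl, rfl⟩ ⟨x', hx', c', rfl, rfl⟩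
      have h1 : x'⁻¹ * c * x' ∈ C := (hC _).1 (by simp [(hC _).2 c.2])
      refine ⟨x * x', mul_mem hx hx', ⟨_, h1⟩ * c', by simp [mul_assoc], ?_⟩
      rw [map_mul, hcomm x' hx' c ⟨_, h1⟩ rfl])
  have hγ' : ∀ x ∈ X, ∀ c : C, γ (x * c) = α c := fun x hx c => uniq _ _ _ (hγ _) ⟨x, hx, c, rfl, rfl⟩
  refine ⟨γ.prod β, fun ⟨a, b⟩ => ?_, fun n => ?_⟩
  · obtain ⟨c, rfl⟩ := hα a
    obtain ⟨x, hx, rfl⟩ := hβ b
    exact ⟨x * c, Prod.ext (hγ' x hx c) (by simp [(hC _).2 c.2])⟩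
  · rw [Prod.ext_iff]
    constructor
    · rintro ⟨h1, h2⟩
      refine ⟨(hC n).1 h2, ?_⟩
      rw [← hγ' 1 (one_mem _), one_mul]; exact h1
    · rintro ⟨h, h1⟩
      refine ⟨?_, (hC n).2 h⟩
      have := hγ' 1 (one_mem _) ⟨n, h⟩
      rw [one_mul, h1] at this
      exact this

theorem pCore_eq_ker {N A : Type*} [Group N] [Group A] {p : ℕ} (f : N →* A)
    (hf : Function.Surjective f) (hk : IsPGroup p f.ker) (hA : pCore p A = ⊥) :
    pCore p N = f.ker := by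
  refine le_antisymm (fun x hx => ?_) (Grp.le_pCore inferInstance hk)
  have := Grp.le_pCore ((pCore_normal p N).map f hf) ((Grp.pCore_isPGroup p N).map f)
    (mem_map_of_mem f hx)
  rwa [hA] at this

theorem pCore_prod {A B : Type*} [Group A] [Group B] {p : ℕ} (hA : pCore p A = ⊥)
    (hB : pCore p B = ⊥) : pCore p (A × B) = ⊥ := by
  rw [eq_bot_iff]
  intro x hx
  have h1 := Grp.le_pCore ((pCore_normal p _).map (MonoidHom.fst A B) Prod.fst_surjective)
    ((Grp.pCore_isPGroup p _).map _) (mem_map_of_mem _ hx)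
  have h2 := Grp.le_pCore ((pCore_normal p _).map (MonoidHom.snd A B) Prod.snd_surjective)
    ((Grp.pCore_isPGroup p _).map _) (mem_map_of_mem _ hx)
  rw [hA] at h1
  rw [hB] at h2
  exact Prod.ext h1 h2

theorem pCore_M24 : pCore 2 M24 = ⊥ :=
  haveI := pCore_normal 2 M24
  M24_normal_two_eq_bot _ (Grp.pCore_isPGroup 2 _)

/-- An element centralising `z` and `C_Q(s)`, `s` a noncentral involution of `Q`, lies in
`⟨z, s⟩`. -/
theorem mem_of_comm_hyper [Finite G] {Q : Subgroup G} {z s x : G} (h : LX Q z) (hs : s ∈ Q)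
    (hss : s * s = 1) (hxz : x * z = z * x) (hx : ∀ q ∈ Q, q * s = s * q → q * x = x * q) :
    x = 1 ∨ x = z ∨ x = s ∨ x = s * z := by
  refine h.eq_of_comm_centralizer hs (h.mem_of_trivial fun y hy => ?_) hx
  have hy' := h.norm x hxz y hy
  have hw : x * y * x⁻¹ * y⁻¹ ∈ Q := mul_mem hy' (inv_mem hy)
  have h1 : ∀ q ∈ Q, q * s = s * q → q * (x * y * x⁻¹ * y⁻¹) = (x * y * x⁻¹ * y⁻¹) * q := by
    intro q hq hqs
    rw [← cmv_eq_zero, cmv_mul_right h.toXS hy' (inv_mem hy) hq]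
    have a : cmv q (x * y * x⁻¹) = cmv q y := by
      rw [← cmv_conj x q y, conj_eq_of_comm (hx q hq hqs).symm]
    have b : cmv q y⁻¹ = cmv q y := cmv_congr ⟨fun e => by simpa using (comm_inv_left e.symm).symm,
      fun e => (comm_inv_left e.symm).symm⟩
    rw [a, b]; exact CharTwo.add_self_eq_zero _
  have hsq : x * y * x⁻¹ * (x * y * x⁻¹) = y * y := by
    have : x * (y * y) * x⁻¹ = y * y := by
      rcases h.sq hy with e | e <;> rw [e]
      · simp
      · exact conj_eq_of_comm hxz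
    rw [← this]; group
  by_cases hys : y * s = s * y
  · left; exact conj_eq_of_comm (hx y hy hys).symm
  have key : ∀ t, Eqv z t s → x * y * x⁻¹ * y⁻¹ ≠ t := fun t ht e => by
    have e' : x * y * x⁻¹ = t * y := by rw [← e]; group
    have h2 := sqv_mul h.toXS (ht.mem h.z_mem hs) hy
    rw [sqv_eqv h.toXS hs ht, cmv_eqv h.toXS hy ht, sqv_eq_zero.2 hss,
      cmv_eq_one.2 (Ne.symm hys), ← e', sqv_congr (y := y) (by rw [hsq]), zero_add] at h2
    simp at h2
  rcases h.eq_of_comm_centralizer hs hw h1 with e | e | e | e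
  · left; exact mul_inv_eq_one.1 e
  · right; rw [h.z_comm y hy, ← e]; group
  · exact absurd e (key _ (Or.inl rfl))
  · exact absurd e (key _ (Or.inr rfl))

section

variable {z s : G} {Q P : Subgroup G} {π : centralizer ({z} : Set G) →* Co1}
  {φ : leechLattice → G}

/-- The subgroup `O_2(C(z,s))`. -/
def RR (Q P : Subgroup G) (z s : G) : Subgroup G :=
  (P ⊓ centralizer ({z} : Set G)) ⊔ (Q ⊓ centralizer ({s} : Set G))

theorem card_RR [Finite G] (d : MonData z Q π φ) (hp : LXPair Q P z s)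
    (hP : Nat.card P = 2 ^ 25) : Nat.card (RR Q P z s) = 2 ^ 35 := by
  have h1 := Grp.card_sup_mul_card_inf_of_le_normalizer (H := P ⊓ centralizer ({z} : Set G))
    (N := Q ⊓ centralizer ({s} : Set G)) (fun p hp' => by
      have a := mem_centralizer_singleton_iff.1 hp'.2
      have b := hp.hP.z_comm p hp'.1
      refine mem_normalizer_fintype (S := ((Q ⊓ centralizer ({s} : Set G) : Subgroup G) : Set G))
        fun q hq => ⟨hp.hQ.norm p a q hq.1, mem_centralizer_singleton_iff.2 ?_⟩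
      exact comm_mul_left (comm_mul_left b (mem_centralizer_singleton_iff.1 hq.2)) (comm_inv_left b))
  have h2 : P ⊓ centralizer ({z} : Set G) ⊓ (Q ⊓ centralizer ({s} : Set G)) = Q ⊓ P := by
    ext x
    exact ⟨fun h => ⟨h.2.1, h.1.1⟩, fun h =>
      ⟨⟨h.2, mem_centralizer_singleton_iff.2 (hp.hQ.z_comm x h.1)⟩, h.1,
        mem_centralizer_singleton_iff.2 (hp.hP.z_comm x h.2)⟩⟩
  have h3 := card_P_eq hp
  have h4 := card_P_eq hp.symm
  rw [hP] at h3
  rw [d.card] at h4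
  rw [h2, d.card_E hp hP, show Nat.card (P ⊓ centralizer ({z} : Set G) : Subgroup G) = 2 ^ 24 by omega,
    show Nat.card (Q ⊓ centralizer ({s} : Set G) : Subgroup G) = 2 ^ 24 by omega] at h1
  rw [RR]; omega

/-- The homomorphism `C(z,s) → M24` with kernel `R`. -/
theorem exists_theta [Finite G] (d : MonData z Q π φ) (hp : LXPair Q P z s)
    (hP : Nat.card P = 2 ^ 25) (hs : Eqv z s (φ (e8 none))) :
    ∃ θ : centralizer ({z, s} : Set G) →* M24, Function.Surjective θ ∧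
      (∀ h, θ h = 1 ↔ (h : G) ∈ RR Q P z s) ∧
      ∀ h, ∃ e ∈ sgnSub, ((e * permHom (θ h) : Co0) : Co1) = π ⟨h, cent_le z s h.2⟩ := by
  let f : centralizer ({z, s} : Set G) →* Co1 := π.comp (inclusion (cent_le z s))
  let Rel : centralizer ({z, s} : Set G) → M24 → Prop := fun h σ =>
    ∃ e ∈ sgnSub, ((e * permHom σ : Co0) : Co1) = f h
  have uniq : ∀ h σ τ, Rel h σ → Rel h τ → σ = τ := by
    rintro h σ τ ⟨e, he, h1⟩ ⟨e', he', h2⟩
    rw [← mul_inv_eq_one]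
    refine eq_one_of_permHom_mem_sgnSub ?_
    rw [map_mul, map_inv]
    rcases mk_eq_mk_Co1.1 (h1.trans h2.symm) with a | a
    · rw [eq_inv_mul_of_mul_eq a, ← mul_assoc, mul_inv_cancel_right]
      exact mul_mem (inv_mem he) he'
    · rw [eq_inv_mul_of_mul_eq a, ← mul_assoc, ← mul_assoc, mul_inv_cancel_right]
      exact mul_mem (mul_mem (inv_mem he) negOne_mem_sgnSub) he'
  obtain ⟨θ, hθ⟩ := exists_hom_of_rel Rel (fun h => by
      obtain ⟨g, hg⟩ := QuotientGroup.mk_surjective (f h)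
      obtain ⟨σ, c, hc, rfl⟩ := mem_monoSub_iff.1
        (mem_monoSub_iff_congr.2 (d.congr_of_comm hg hs (mem_cent2.1 h.2).2))
      exact ⟨σ, _, sgn_mem_sgnSub c hc, by rw [← mono_eq, hg]⟩) uniq (by
      rintro h σ h' τ ⟨e, he, h1⟩ ⟨e', he', h2⟩
      refine ⟨e * (permHom σ * e' * (permHom σ)⁻¹),
        mul_mem he (conj_mem_sgnSub (permHom_mem σ) he'), ?_⟩
      rw [map_mul f, ← h1, ← h2, ← QuotientGroup.mk_mul, map_mul]
      congr 1; group)
  have hE := d.preim_eq hp hP hs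
  refine ⟨θ, fun σ => ?_, fun h => ⟨fun e => ?_, fun e => ?_⟩, hθ⟩
  · obtain ⟨h, h1, h2⟩ := d.exists_comm_of_congr hs hp.hP.z_ne hp.ne
      (mem_monoSub_iff_congr.1 (permHom_mem σ))
    exact ⟨⟨h, mem_cent2.2 ⟨MonData.comm_z h, h2⟩⟩,
      uniq _ _ _ (hθ _) ⟨1, one_mem _, by rw [one_mul, h1]; rfl⟩⟩
  · obtain ⟨a, ha, h1⟩ := hθ h
    rw [e, map_one, mul_one] at h1
    rw [← hE] at ha
    obtain ⟨p, hp1, hp2⟩ := MonData.mem_preim.1 ha
    have h2 : ((p⁻¹ * ⟨h, cent_le z s h.2⟩ : centralizer ({z} : Set G)) : G) ∈ Q :=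
      (d.ker _).1 (by rw [map_mul, map_inv, ← hp2, h1]; exact inv_mul_cancel _)
    have h3 : (h : G) = p * ((p : G)⁻¹ * h) := by group
    rw [h3]
    exact mul_mem (mem_sup_left ⟨hp1, p.2⟩) (mem_sup_right ⟨h2, mem_centralizer_singleton_iff.2
      (comm_mul_left (comm_inv_left (hp.hP.z_comm _ hp1)) (mem_cent2.1 h.2).2)⟩)
  · have h1 : RR Q P z s ≤ θ.ker.map (centralizer ({z, s} : Set G)).subtype := by
      refine sup_le (fun p hp' => ?_) fun q hq => ?_
      · have a : p ∈ centralizer ({z, s} : Set G) :=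
          mem_cent2.2 ⟨mem_centralizer_singleton_iff.1 hp'.2, hp.hP.z_comm _ hp'.1⟩
        obtain ⟨g, hg⟩ := QuotientGroup.mk_surjective (f ⟨p, a⟩)
        refine ⟨⟨p, a⟩, uniq _ _ _ (hθ _) ⟨g, ?_, by rw [map_one, mul_one, hg]⟩, rfl⟩
        rw [← hE]; exact MonData.mem_preim.2 ⟨⟨p, hp'.2⟩, hp'.1, hg⟩
      · have a : q ∈ centralizer ({z, s} : Set G) :=
          mem_cent2.2 ⟨hp.hQ.z_comm _ hq.1, mem_centralizer_singleton_iff.1 hq.2⟩
        refine ⟨⟨q, a⟩, uniq _ _ _ (hθ _) ⟨1, one_mem _, ?_⟩, rfl⟩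
        rw [map_one, mul_one, QuotientGroup.mk_one]
        exact ((d.ker _).2 hq.1).symm
    obtain ⟨k, hk, e'⟩ := h1 e
    rwa [← Subtype.ext e']

theorem v4_normalizer [Finite G] (d : MonData z Q π φ) (hp : LXPair Q P z s)
    (hP : Nat.card P = 2 ^ 25) (hs : Eqv z s (φ (e8 none))) :
    ∃ (E N : Subgroup G) (O : Subgroup N), IsKleinFour E ∧ N = normalizer (E : Set G) ∧
      O = pCore 2 N ∧ Nat.card O = 2 ^ 35 ∧ (center O).map O.subtype = E.subgroupOf N ∧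
      ∃ _ : O.Normal, Nonempty (N ⧸ O ≃* M24 × Equiv.Perm (Fin 3)) := by
  obtain ⟨θ, hθ1, hθ2, -⟩ := exists_theta d hp hP hs
  let E := closure ({z, s} : Set G)
  let N := normalizer (E : Set G)
  obtain ⟨β, hβ1, hβ2⟩ : ∃ β : N →* Equiv.Perm (Fin 3),
      (∀ n, β n = 1 ↔ (n : G) * z = z * n ∧ (n : G) * s = s * n) ∧
      ∀ σ, ∃ n : N, (n : G) ∈ Q ⊔ P ∧ β n = σ := hp.exists_hom_surj
  have hC : ∀ n : (centralizer ({z, s} : Set G)).subgroupOf N,
      ((n : N) : G) ∈ centralizer ({z, s} : Set G) := fun n => n.2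
  have hCN : centralizer ({z, s} : Set G) ≤ N := fun c hc =>
    centralizer_le_normalizer _ (mem_centralizer_closure_pair.2 (mem_cent2.1 hc))
  obtain ⟨ψ, -, hψ1, hψ2⟩ := hp.exists_hom_X
  obtain ⟨f, hf1, hf2⟩ := exists_hom_prod ((Q ⊔ P).subgroupOf N)
    ((centralizer ({z, s} : Set G)).subgroupOf N)
    (θ.comp (subgroupOfEquivOfLe hCN).toMonoidHom) β
    (hθ1.comp (subgroupOfEquivOfLe hCN).surjective) hβ2
    (fun n => (hβ1 n).trans mem_cent2.symm)
    (fun c hc => (hθ2 _).2 (by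
      have : (⟨_, hc⟩ : (Q ⊔ P : Subgroup G)) ∈ ψ.ker := (hψ1 _).2 (mem_cent2.1 (hC c))
      rwa [hψ2] at this))
    (fun x hx c c' e => by
      rw [← mul_inv_eq_one, ← map_inv, ← map_mul]
      refine (hθ2 _).2 ?_
      have := hp.comm_mem_R (x := (x : G)⁻¹) (inv_mem hx) (mem_cent2.1 (hC c)).1
        (mem_cent2.1 (hC c)).2
      have e' : ((c' : N) : G) = (x : G)⁻¹ * c * (x : G)⁻¹⁻¹ := by rw [e]; simp
      rw [← e'] at this
      exact this)
  have hRN : RR Q P z s ≤ N := fun r hr => hCN (mem_cent2.2 (hp.R_comm hr))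
  have hker : f.ker = (RR Q P z s).subgroupOf N := by
    ext n
    rw [MonoidHom.mem_ker, hf2]
    exact ⟨fun ⟨_, h⟩ => (hθ2 _).1 h, fun h => ⟨mem_cent2.2 (hp.R_comm h), (hθ2 _).2 h⟩⟩
  have hO : pCore 2 N = f.ker := pCore_eq_ker f hf1
    (hker ▸ hp.R_isPGroup.comap_of_injective _ (subtype_injective _))
    (pCore_prod pCore_M24 pCore_two_perm_three)
  have hz := hp.hQ.z_sq
  have hss := hp.hP.z_sq
  refine ⟨E, N, f.ker, ?_, rfl, hO.symm, ?_, ?_, inferInstance,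
    ⟨QuotientGroup.quotientKerEquivOfSurjective f hf1⟩⟩
  · have hsq : ∀ x ∈ E, x * x = 1 := fun x hx => E_sq hp (hp.V_le hx)
    have hcard : Nat.card E = 4 := by
      have h1 := hp.hQ.card_sup_zpowers (A := zpowers z) (zpowers_le.2 hp.hQ.z_mem) (mem_zpowers z)
        hp.s_mem (by
          rw [mem_zpowers_invol hz]; exact not_or.2 ⟨hp.hP.z_ne, hp.ne⟩)
      rw [Nat.card_zpowers, hp.hQ.orderOf_z, zpowers_eq_closure, zpowers_eq_closure,
        ← Subgroup.closure_union] at h1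
      exact h1
    haveI : Nontrivial E := Finite.one_lt_card_iff_nontrivial.1 (by omega)
    exact ⟨hcard, (Monoid.exponent_eq_prime_iff Nat.prime_two).2 fun g hg =>
      orderOf_eq_prime (Subtype.ext (by rw [pow_two]; exact hsq g g.2)) hg⟩
  · rw [hker, Nat.card_congr (subgroupOfEquivOfLe hRN).toEquiv, card_RR d hp hP]
  · ext n
    rw [mem_subgroupOf, hp.mem_V]
    constructor
    · rintro ⟨x, hx, rfl⟩
      have hxR : ((x : N) : G) ∈ RR Q P z s := hker.le x.2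
      rw [← hp.sz]
      refine mem_of_comm_hyper hp.hQ hp.s_mem hss (hp.R_comm hxR).1 fun q hq hqs => ?_
      have h1 : q ∈ RR Q P z s := mem_sup_right ⟨hq, mem_centralizer_singleton_iff.2 hqs⟩
      exact congrArg (fun t : f.ker => ((t : N) : G))
        (mem_center_iff.1 hx ⟨⟨q, hRN h1⟩, by rw [hker]; exact h1⟩)
    · intro h
      have h0 := hp.V_le (hp.mem_V.2 h)
      refine ⟨⟨n, by
        rw [hker]
        exact mem_sup_right ⟨h0.1, mem_centralizer_singleton_iff.2 (hp.hP.z_comm _ h0.2)⟩⟩,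
        mem_center_iff.2 fun y => Subtype.ext (Subtype.ext ?_), rfl⟩
      have hyR : ((y : N) : G) ∈ RR Q P z s := hker.le y.2
      exact (mem_centralizer_closure_pair.2 (hp.R_comm hyR) n (hp.mem_V.2 h)).symm

/-- The standard configuration. -/
theorem exists_std [Finite G] (d : MonData z Q π φ)
    (hn : ∃ g : G, g * z * g⁻¹ ∈ Q ∧ g * z * g⁻¹ ≠ z) :
    ∃ π φ s P, MonData z Q π φ ∧ LXPair Q P z s ∧ Nat.card P = 2 ^ 25 ∧ IsConj z s ∧
      Eqv z s (φ (e8 none)) := by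
  obtain ⟨g, h1, h2⟩ := hn
  obtain ⟨g₀, hg₀⟩ := d.exists_twist (d.pair h1 h2) (d.card_conj g)
  exact ⟨_, _, _, _, d.twist g₀, d.pair h1 h2, d.card_conj g, isConj_iff.2 ⟨g, rfl⟩, hg₀⟩

end

end Cfsg.Agent.MonL
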