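import Cfsg.Agent.MonL.V5a
import Cfsg.Agent.Spor.Co1Cent
import Cfsg.Agent.Spor.LXDesc

/-! The sublattice of the Leech lattice supported on an octad. -/

set_option autoImplicit false

namespace Cfsg.Agent.MonL.V10

open Subgroup Cfsg Cfsg.Spor Cfsg.Agent.Spor Cfsg.Agent.TT Cfsg.Agent.LES Cfsg.Agent.Spor.Leech
  Cfsg.Agent.LES.Co Cfsg.Agent.XSC.C1 Cfsg.Agent.Comp Cfsg.Agent.Spor.M24C Cfsg.Agent.Spor.Co1Cent
  Cfsg.Agent.Mon
open scoped Matrix Pointwise symmDiff

local notation "𝐨" => setOf' 5279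
local notation "𝐍 " x:max => sqNorm ((x : leechLattice) : GolayPt → ℤ)
local notation "⟪" x ", " y "⟫" =>
  dotInt ((x : leechLattice) : GolayPt → ℤ) ((y : leechLattice) : GolayPt → ℤ)

theorem eps_eps (x : leechLattice) : eps • eps • x = x := by rw [← mul_smul, eps_sq, one_smul]

theorem ng_iff {x : leechLattice} : eps • x = -x ↔ ∀ i, i ∉ 𝐨 → (x : GolayPt → ℤ) i = 0 := by
  simp only [Subtype.ext_iff, funext_iff, eps, sgn_smul, AddSubgroup.coe_neg, Pi.neg_apply]
  refine forall_congr' fun i => ?_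
  split_ifs with h <;> simp only [h, not_true, not_false_iff, false_imp_iff, true_imp_iff]
  omega

theorem ng_sub (v : leechLattice) : eps • (v - eps • v) = -(v - eps • v) := by
  rw [smul_sub, eps_eps, neg_sub]

theorem exists_sub {x : leechLattice} (h : eps • x = -x) : ∃ v, x = v - eps • v := by
  obtain ⟨v, hv⟩ := LL.exists_proj o0_GC (Or.inl o0_card) x.2 (ng_iff.1 h)
  refine ⟨v, Subtype.ext (funext fun i => ?_)⟩
  rw [eps, LL.sub_sgn]
  split_ifs with hi
  exacts [(hv i hi).symm, ng_iff.1 h i hi]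

theorem dot_eps (a b : leechLattice) : ⟪eps • a, b⟫ = ⟪a, eps • b⟫ := by
  rw [← dotInt_smul eps, eps_eps]

theorem dot_sub (v w : leechLattice) : ⟪v - eps • v, w⟫ = ⟪v, w - eps • w⟫ := by
  rw [AddSubgroup.coe_sub, AddSubgroup.coe_sub, dotInt_sub_left, dotInt_sub_right, dot_eps]

theorem dot_sub_ng (v : leechLattice) {y : leechLattice} (hy : eps • y = -y) :
    ⟪v - eps • v, y⟫ = 2 * ⟪v, y⟫ := by
  rw [dot_sub, hy, sub_neg_eq_add, AddSubgroup.coe_add, dotInt_add_right, two_mul]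

theorem norm_congr (v : leechLattice) {y : leechLattice} (hy : eps • y = -y) :
    𝐍 (v - eps • v + (y + y)) % 64 = 𝐍 (v - eps • v) % 64 := by
  have h1 := dot_sub_ng v hy
  have h2 := eight_dvd_dotInt v.2 y.2
  have h3 := sixteen_dvd_sqNorm y.2
  rw [AddSubgroup.coe_add, AddSubgroup.coe_add, sqNorm_add, sqNorm_add, dotInt_add_right,
    dotInt_self]
  omega

theorem not_short {v r y : leechLattice} (e : r - (v - eps • v) = y + y)
    (hr : 𝐍 r = 0 ∨ 𝐍 r = 64) : 𝐍 (v - eps • v) % 64 ≠ 32 := fun hx => by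
  have orth : ∀ a : leechLattice, eps • a = -a → ⟪a, y + eps • y⟫ = 0 := fun a ha => by
    rw [AddSubgroup.coe_add, dotInt_add_right, ← dot_eps, ha, AddSubgroup.coe_neg, dotInt_neg_left,
      add_neg_cancel]
  have e1 : r = (v - eps • v + (y - eps • y)) + (y + eps • y) := by
    rw [sub_eq_iff_eq_add.1 e]; abel
  have h1 := sqNorm_add ((v - eps • v + (y - eps • y) : leechLattice) : GolayPt → ℤ)
    (y + eps • y : leechLattice)
  rw [← AddSubgroup.coe_add, ← e1, orth _ (by rw [smul_add, ng_sub, ng_sub, neg_add])] at h1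
  by_cases h2 : y + eps • y = 0
  · have := norm_congr v (eq_neg_of_add_eq_zero_right h2)
    rw [← e, add_sub_cancel] at this
    omega
  have h3 := min_norm (y + eps • y).2 fun e => h2 (Subtype.ext e)
  have h4 := LL.add_sgn_ne o0_GC o0_card y
  have h5 := sixteen_dvd_sqNorm (y + eps • y).2
  have h6 : v - eps • v + (y - eps • y) = 0 := by
    by_contra h
    have := min_norm (v - eps • v + (y - eps • y)).2 fun e => h (Subtype.ext e)
    change 𝐍 (y + eps • y) ≠ 32 at h4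
    omega
  have h7 := sqNorm_add ((y - eps • y : leechLattice) : GolayPt → ℤ) (y + eps • y : leechLattice)
  rw [← AddSubgroup.coe_add, orth _ (ng_sub y), show y - eps • y + (y + eps • y) = y + y by abel,
    AddSubgroup.coe_add, sqNorm_add, dotInt_self, eq_neg_of_add_eq_zero_right h6,
    AddSubgroup.coe_neg, sqNorm_neg] at h7
  have h8 := sixteen_dvd_sqNorm y.2
  rw [h6, show 𝐍 0 = 0 by simp [sqNorm]] at h1
  omega

/-- four times an even set -/
def w4 (T : Finset GolayPt) (h : T.card % 2 = 0) : leechLattice :=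
  ⟨fun i => if i ∈ T then 4 else 0, mem_leech_of_four_dvd (fun i => by split_ifs <;> rfl) (by
    rw [sum_ite_mem_const]; omega)⟩

theorem ng_w4 {T : Finset GolayPt} (h : T.card % 2 = 0) (hT : T ⊆ 𝐨) : eps • w4 T h = -w4 T h :=
  ng_iff.2 fun _ hi => if_neg fun e => hi (hT e)

theorem pt0_mem : pt 0 ∈ 𝐨 := by decide

theorem mem_E_of_fix {g : Co0} (h : ∀ x : leechLattice, eps • x = -x → ∃ y, g • x - x = y + y) :
    (g : Co1) ∈ E.map (QuotientGroup.mk' _) := by
  obtain ⟨σ, c, hc, rfl⟩ := mem_monoSub_iff.1 (mem_monoSub_iff_congr.2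
    (h (e8 (pt 0)) (by rw [eps, sgn_e8, if_pos pt0_mem])))
  have h1 : ∀ i ∈ 𝐨, ∀ j ∈ 𝐨, i ≠ j → (σ • i = i ∨ σ • i = j) ∧ (i ∈ c ↔ j ∈ c) :=
    fun i hi j hj e => by
      have h2 : ({i, j} : Finset GolayPt).card % 2 = 0 := by rw [Finset.card_pair e]
      obtain ⟨a, b⟩ := (V5.w4_iff σ hc (w := w4 _ h2) fun _ => rfl).1
        (h _ (ng_w4 h2 (Finset.insert_subset hi (Finset.singleton_subset_iff.2 hj))))
      constructor
      · have h3 := card_symmDiff' (σ • ({i, j} : Finset GolayPt)) {i, j}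
        rw [Finset.card_smul_finset, Finset.card_pair e] at h3
        have h4 := GC_card a
        have h5 := symmDiff_eq_bot.1 (Finset.card_eq_zero.1 (by omega) :
          (σ • ({i, j} : Finset GolayPt)) ∆ {i, j} = ∅)
        simpa using h5.le (Finset.smul_mem_smul_finset (Finset.mem_insert_self i _))
      · by_cases i ∈ c <;> by_cases j ∈ c <;> simp_all
  have h2 : σ ∈ M24C.fixS 𝐨 := M24C.mem_fixS.2 fun i hi => by
    obtain ⟨j, hj, k, hk, a, b, e⟩ := (by decide +kernel :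
      ∀ i ∈ 𝐨, ∃ j ∈ 𝐨, ∃ k ∈ 𝐨, i ≠ j ∧ i ≠ k ∧ j ≠ k) i hi
    exact (h1 i hi j hj a).1.resolve_right fun e1 => (h1 i hi k hk b).1.elim
      (fun e2 => a (e2.symm.trans e1)) fun e2 => e (e1.symm.trans e2)
  have h3 : ∀ i ∈ 𝐨, i ∈ c ↔ pt 0 ∈ c := fun i hi =>
    (eq_or_ne i (pt 0)).elim (fun e => e ▸ Iff.rfl) fun e => (h1 i hi _ pt0_mem e).2
  by_cases h0 : pt 0 ∈ c
  · exact ⟨_, mono_mem_E h2 (GC_compl hc) (Finset.disjoint_right.2 fun i hi e =>
      Finset.mem_compl.1 e ((h3 i hi).2 h0)), mk_eq_mk_Co1.2 (Or.inr (negOne_mul_mono σ hc).symm)⟩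
  · exact ⟨_, mono_mem_E h2 hc (Finset.disjoint_right.2 fun i hi e => h0 ((h3 i hi).1 e)), rfl⟩

theorem ker2 : Ker2 (QuotientGroup.mk' (center Co0)) :=
  ker2_comp (MonoidHom.id Co1) fun _ _ => id

theorem lxE : LX (E.map (QuotientGroup.mk' (center Co0))) (eps : Co1) :=
  Co1Cent.lx ker2 (QuotientGroup.mk'_surjective _)

theorem card_cent_eps : Nat.card (centralizer ({(eps : Co1)} : Set Co1)) = 89181388800 := by
  haveI := W3.fin_Co1
  have hC := card_cent_map ker2
  have hQ := card_map_E ker2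
  have hG : Nat.card Co1 = _ := card_Co1
  obtain ⟨-, ⟨⟨e⟩⟩ | ⟨⟨e⟩⟩⟩ := exists_equiv_plus_or_minus lxE.toXS.isExtraspecial (n := 4) hQ
  · have h1 := Nat.le_of_dvd (by rw [hG]; decide)
      (LXO.dvd_of_equiv lxE e (XSC.card_aut_plus (n := 4) (by norm_num)))
    rw [hG] at h1
    exact le_antisymm (h1.trans (by decide)) hC
  · have h1 := Nat.le_of_dvd (by rw [hG]; decide) (LXO.dvd_of_equiv lxE e (XSC.card_aut_minus 3))
    rw [hG] at h1
    exact absurd (hC.trans h1) (by decide)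

theorem le_of_normal {G : Type*} [Group G] [Finite G] {Q D : Subgroup G} {z t : G} (h : LX Q z)
    (hQ : Nat.card Q = 2 ^ 9) (hC : Nat.card (centralizer ({z} : Set G)) = 89181388800)
    (hD : D ≤ Q) (hz : z ∈ D) (hn : ∀ c, c * z = z * c → ∀ d ∈ D, c * d * c⁻¹ ∈ D) (ht : t ∈ D)
    (h1 : t ≠ 1) (h2 : t ≠ z) (h3 : t * t = 1) : Q ≤ D := by
  obtain ⟨e, φ, c⟩ := LXD.exists_co h hQ hC
  let W : AddSubgroup (Fin 4 ⊕ Fin 4 → ZMod 2) :=
    { carrier := {v | ∃ y : Q, (y : G) ∈ D ∧ (e y).v = v}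
      zero_mem' := ⟨1, one_mem _, by rw [map_one]; rfl⟩
      add_mem' := fun ⟨a, ha, e1⟩ ⟨b, hb, e2⟩ =>
        ⟨a * b, mul_mem ha hb, by rw [map_mul, ← e1, ← e2]; rfl⟩
      neg_mem' := fun ⟨a, ha, e1⟩ => ⟨a⁻¹, inv_mem ha, by rw [map_inv, ← e1]; rfl⟩ }
  have h4 : ∀ i, Pi.single i 1 ∈ W := fun i => by
    obtain ⟨k, hk⟩ := O8Cent.trans_sing (s := (e ⟨t, hD ht⟩).v) (t := Pi.single i 1) (fun a => by
      rcases ESM.v_eq_zero_iff.1 a with a | a
      · exact h1 (congrArg Subtype.val (e.injective (a.trans (map_one e).symm)))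
      · exact h2 (congrArg Subtype.val (e.injective (a.trans c.ez.symm)))) (by simp)
      (ESM.sq_eq_one_iff.1 (by rw [← map_mul, ← map_one e]; exact congrArg e (Subtype.ext h3)))
      ((congrFun (bPlus_quad 4) _).trans (by revert i; decide +kernel))
    obtain ⟨k, rfl⟩ := c.surj k
    have := hn k (mem_centralizer_singleton_iff.1 k.2) t ht
    exact ⟨⟨_, hD this⟩, this, (c.act k ⟨t, hD ht⟩ _ rfl).symm.trans hk⟩
  intro x hx
  obtain ⟨y, hy, a⟩ : (e ⟨x, hx⟩).v ∈ W := by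
    rw [← Finset.univ_sum_single (e ⟨x, hx⟩).v]
    refine sum_mem fun i _ => ?_
    rcases Leech.zmod2_cases ((e ⟨x, hx⟩).v i) with a | a <;> rw [a]
    exacts [by rw [Pi.single_zero]; exact zero_mem _, h4 i]
  exact (c.eqv a.symm).mem hz hy

theorem card_disj {c : Finset GolayPt} (hc : c ∈ GC) (h : Disjoint c 𝐨) : c.card % 8 = 0 := by
  have h1 := card_symmDiff' c 𝐨
  rw [Finset.disjoint_iff_inter_eq_empty.1 h, o0_card, Finset.card_empty] at h1
  have := GC_card hc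
  have := GC_card (GC_symmDiff hc o0_GC)
  omega

theorem card_inter3 {a b c : Finset GolayPt} (ha : a ∈ GC) (hb : b ∈ GC) (hc : c ∈ GC)
    (h1 : Disjoint a 𝐨) (h2 : Disjoint b 𝐨) (h3 : Disjoint c 𝐨) : (a ∩ b ∩ c).card % 2 = 0 := by
  have sd : ∀ {a b}, Disjoint a 𝐨 → Disjoint b 𝐨 → Disjoint (a ∆ b) 𝐨 := fun h1 h2 =>
    (disjoint_sup_left.2 ⟨h1, h2⟩).mono_left symmDiff_le_sup
  have key : ∀ {a b}, a ∈ GC → b ∈ GC → Disjoint a 𝐨 → Disjoint b 𝐨 → (a ∩ b).card % 4 = 0 :=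
    fun {a b} ha hb h1 h2 => by
      have := card_symmDiff' a b
      have := card_disj ha h1
      have := card_disj hb h2
      have := card_disj (GC_symmDiff ha hb) (sd h1 h2)
      omega
  have e := card_symmDiff' (a ∩ b) (a ∩ c)
  rw [← show a ∩ _ = (a ∩ b) ∆ (a ∩ c) from inf_symmDiff_distrib_left a _ _,
    show a ∩ b ∩ (a ∩ c) = a ∩ b ∩ c from (inf_inf_distrib_left a b c).symm.trans
      (inf_assoc a b c).symm] at e
  have := key ha hb h1 h2
  have := key ha hc h1 h3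
  have := key ha (GC_symmDiff hb hc) h1 (sd h2 h3)
  omega

theorem exists_off {f : leechLattice} (h : ∃ y, f - eps • f = y + y) :
    ∃ d ∈ GC, Disjoint d 𝐨 ∧ ∀ i, i ∉ 𝐨 → (f : GolayPt → ℤ) i % 4 = if i ∈ d then 2 else 0 := by
  obtain ⟨y, hy⟩ := h
  have h1 : ∀ i, ((f - y : leechLattice) : GolayPt → ℤ) i =
      if i ∈ 𝐨 then 0 else (f : GolayPt → ℤ) i := fun i => by
    rw [AddSubgroup.coe_sub, Pi.sub_apply, LL.coord_of_fix o0_GC hy]
    split_ifs <;> simp
  obtain ⟨d, hd, h2, -⟩ := LL.even_of_zero (f - y).2 (p := pt 0) (by rw [h1, if_pos pt0_mem]; rfl)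
  refine ⟨d, hd, Finset.disjoint_left.2 fun i a b => ?_, fun i hi => by rw [← h2, h1, if_neg hi]⟩
  have := h2 i
  rw [h1, if_pos a, if_pos b] at this
  omega

theorem dot_sgn {c : Finset GolayPt} (hc : c ∈ GC) (h : Disjoint c 𝐨) {f g : leechLattice}
    (hf : ∃ y, f - eps • f = y + y) (hg : ∃ y, g - eps • g = y + y) :
    ⟪f - sgn c hc • f, g⟫ % 16 = 0 := by
  obtain ⟨a, ha, a1, a2⟩ := exists_off hf
  obtain ⟨b, hb, b1, b2⟩ := exists_off hg
  have h1 := card_inter3 hc ha hb h a1 b1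
  rw [dotInt, sum_emod_congr (g := fun i => if i ∈ c ∩ a ∩ b then 8 else 0) fun i => ?_,
    sum_ite_mem_const]
  · omega
  rw [LL.sub_sgn]
  by_cases hi : i ∈ c
  · have e1 := a2 i (Finset.disjoint_left.1 h hi)
    have e2 := b2 i (Finset.disjoint_left.1 h hi)
    simp only [Finset.mem_inter, hi, true_and, if_true]
    obtain ⟨s, hs⟩ : ∃ s, (f : GolayPt → ℤ) i = 4 * s + (f : GolayPt → ℤ) i % 4 :=
      ⟨_, (Int.mul_ediv_add_emod _ 4).symm⟩
    obtain ⟨t, ht⟩ : ∃ t, (g : GolayPt → ℤ) i = 4 * t + (g : GolayPt → ℤ) i % 4 :=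
      ⟨_, (Int.mul_ediv_add_emod _ 4).symm⟩
    rw [hs, ht, e1, e2]
    by_cases i ∈ a <;> by_cases i ∈ b <;> simp only [*, if_true, if_false, and_true, and_false] <;>
      ring_nf <;> omega
  · simp [hi]

theorem ng_induction (H : AddSubgroup leechLattice) (h1 : two_ind _ o0_GC ∈ H)
    (h2 : e8 (pt 0) ∈ H) (h3 : ∀ T h, T ⊆ 𝐨 → w4 T h ∈ H) {x : leechLattice} (hx : eps • x = -x) :
    x ∈ H := by
  have key : ∀ x : leechLattice, (∀ i, i ∉ 𝐨 → (x : GolayPt → ℤ) i = 0) →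
      (∀ i, (x : GolayPt → ℤ) i % 4 = 0) → x ∈ H := fun x h0 hx => by
    let w : GolayPt → leechLattice := fun i =>
      ⟨Pi.single i 4 + Pi.single (pt 0) 4, single_add_single_mem_leech i _ rfl rfl rfl⟩
    have hw : ∀ i ∈ 𝐨, w i ∈ H := fun i hi => by
      by_cases e : i = pt 0
      · convert h2 using 1
        exact Subtype.ext (by rw [e]; exact (Pi.single_add _ _ _).symm)
      · convert h3 {i, pt 0} (by rw [Finset.card_pair e])
          (Finset.insert_subset hi (Finset.singleton_subset_iff.2 pt0_mem)) using 1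
        refine Subtype.ext (funext fun j => ?_)
        simp only [w, w4, Pi.add_apply, Pi.single_apply, Finset.mem_insert, Finset.mem_singleton]
        by_cases a : j = i <;> by_cases b : j = pt 0 <;> simp_all
    obtain ⟨c, -, -, h5⟩ := LL.even_of_zero x.2 (p := none) (by have := hx none; omega)
    have h6 : 4 * ∑ i, (x : GolayPt → ℤ) i / 4 = ∑ i, (x : GolayPt → ℤ) i := by
      rw [Finset.mul_sum]
      exact Finset.sum_congr rfl fun i _ => by have := hx i; omega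
    have : x = ∑ i, ((x : GolayPt → ℤ) i / 4) • w i -
        ((∑ i, (x : GolayPt → ℤ) i) / 8) • w (pt 0) := by
      refine Subtype.ext (funext fun j => ?_)
      rw [AddSubgroup.coe_sub, Pi.sub_apply, AddSubmonoidClass.coe_finsetSum, Finset.sum_apply]
      simp only [w, AddSubgroup.coe_zsmul, Pi.smul_apply, Pi.add_apply, smul_eq_mul, mul_add,
        Finset.sum_add_distrib, Pi.single_apply, mul_ite, mul_zero, Finset.sum_ite_eq,
        Finset.mem_univ, if_true]
      have := hx j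
      split_ifs
      · rw [← Finset.sum_mul]; omega
      · simp; omega
    rw [this]
    refine sub_mem (sum_mem fun i _ => ?_) (zsmul_mem (hw _ pt0_mem) _)
    by_cases hi : i ∈ 𝐨
    · exact zsmul_mem (hw i hi) _
    · rw [h0 i hi, Int.zero_ediv, zero_smul]; exact zero_mem _
  have h0 := ng_iff.1 hx
  obtain ⟨c, hc, h4, -⟩ := LL.even_of_zero x.2 (p := none) (by rw [h0 _ (by decide)]; rfl)
  rcases LL.eq_of_subset o0_GC (Or.inl o0_card) hc (fun i hi => by
    by_contra e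
    have := h4 i
    rw [h0 i e, if_pos hi] at this
    omega) with rfl | rfl
  · exact key x h0 fun i => by simpa using h4 i
  · rw [← sub_add_cancel x (two_ind _ o0_GC)]
    refine add_mem (key _ (fun i hi => ?_) fun i => ?_) h1 <;>
      rw [AddSubgroup.coe_sub, Pi.sub_apply]
    · rw [h0 i hi]; exact sub_eq_zero.2 (if_neg hi).symm
    · have := h4 i
      simp only [two_ind]
      split_ifs at this ⊢ <;> omega

end Cfsg.Agent.MonL.V10
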