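import Cfsg.Agent.MonL.V10a

/-! A hyperbolic basis of the octad sublattice modulo two. -/

set_option autoImplicit false

namespace Cfsg.Agent.MonL.V10

open Subgroup Cfsg Cfsg.Spor Cfsg.Agent.Spor Cfsg.Agent.Spor.Leech Cfsg.Agent.XSC.C1
  Cfsg.Agent.Comp Cfsg.Agent.Spor.Co1Cent Cfsg.Agent.Mon

local notation "𝐍 " x:max => sqNorm ((x : leechLattice) : GolayPt → ℤ)
local notation "⟪" x ", " y "⟫" =>
  dotInt ((x : leechLattice) : GolayPt → ℤ) ((y : leechLattice) : GolayPt → ℤ)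

/-- the quadratic form -/
noncomputable def q0 (v : leechLattice) : ZMod 2 := ((𝐍 (v - eps • v) / 32 : ℤ) : ZMod 2)

theorem q0_add {v w : leechLattice} (hv : 𝐍 (v - eps • v) % 32 = 0) (hw : 𝐍 (w - eps • w) % 32 = 0) :
    q0 (v + w) = q0 v + q0 w + if ⟪v, w - eps • w⟫ % 16 = 0 then 0 else 1 := by
  have h1 := dot_sub_ng v (ng_sub w)
  have h2 := eight_dvd_dotInt v.2 (w - eps • w).2
  have h3 : (if ⟪v, w - eps • w⟫ % 16 = 0 then 0 else 1 : ZMod 2) =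
      ((if ⟪v, w - eps • w⟫ % 16 = 0 then 0 else 1 : ℤ) : ZMod 2) := by split_ifs <;> rfl
  rw [q0, q0, q0, h3, ← Int.cast_add, ← Int.cast_add, ZMod.intCast_eq_intCast_iff', smul_add,
    add_sub_add_comm, AddSubgroup.coe_add, sqNorm_add]
  split_ifs <;> omega

theorem q0_eq_one {v : leechLattice} (hv : 𝐍 (v - eps • v) % 32 = 0) :
    q0 v = 1 ↔ 𝐍 (v - eps • v) % 64 = 32 := by
  rw [q0, ← Int.cast_one, ZMod.intCast_eq_intCast_iff']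
  omega

/-- coordinates of the basis -/
def cf8 : Fin 4 ⊕ Fin 4 → List ℤ := Sum.elim
    ![[2, 1, 1, 0, 0, -1, -1, 0, -1, -1, 0, 1, -2, 0, 0, 0, -1, 0, 0, 1, 1, 2, -1, 0],
      [2, -1, 0, 0, 0, 1, 0, -1, 0, -1, -1, 2, 0, 0, 0, 1, 0, -1, -1, 1, 1, 0, 0, 0],
      [3, 0, 0, 0, -1, -1, 0, 0, 0, -1, -1, 2, -1, 1, 0, 0, 0, 0, -1, 1, 2, 1, -1, 0],
      [3, 0, 0, 0, 0, 0, 0, 0, 0, -1, 0, 1, -1, 0, -1, 0, -1, -1, -2, 0, 0, 0, -1, 3]]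
    ![[2, 1, 0, 1, 0, -1, -1, 0, -1, -1, 0, 1, -2, 0, 0, 0, -1, -1, 0, 0, 1, 1, -1, 2],
      [3, 0, 1, 1, 1, 0, 0, 0, -1, -1, 0, 1, -3, -1, -1, 0, -1, -2, -2, 0, 0, 0, -2, 5],
      [2, 0, 0, 0, 1, -1, -1, 1, 0, -1, 0, 1, -2, 0, 0, 0, -1, -1, -1, 0, 0, 1, 0, 2],
      [3, 0, 0, 0, 0, -1, -1, 0, 0, 0, 1, 1, -2, 0, -1, 0, -2, -1, -1, 0, 0, 0, -1, 4]]

/-- the projections of the basis -/
def tb8 : Fin 4 ⊕ Fin 4 → List ℤ := Sum.elim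
    ![[10, 6, 6, 2, 2, 0, 0, 2, 0, 0, 2, 0, 2],
      [12, 0, 4, 4, 4, 0, 0, 0, 0, 0, 0, 0, 0],
      [16, 4, 4, 4, 0, 0, 0, 4, 0, 0, 0, 0, 0],
      [14, 2, 2, 2, 2, 0, 0, 2, 0, 0, 2, 0, 6]]
    ![[10, 6, 2, 6, 2, 0, 0, 2, 0, 0, 2, 0, 2],
      [14, 2, 6, 6, 6, 0, 0, 2, 0, 0, 2, 0, 2],
      [10, 2, 2, 2, 6, 0, 0, 6, 0, 0, 2, 0, 2],
      [14, 2, 2, 2, 2, 0, 0, 2, 0, 0, 6, 0, 2]]

/-- linear combinations of the basis -/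
noncomputable def lc (b : Fin 4 ⊕ Fin 4 → ZMod 2) : leechLattice :=
  ∑ i, ((b i).val : ℤ) • emb (toF (cf8 i))

theorem lc_add (a b : Fin 4 ⊕ Fin 4 → ZMod 2) : ∃ y, lc (a + b) = lc a + lc b + (y + y) := by
  choose c hc using fun i => (by decide : ∀ s t : ZMod 2, ∃ c ∈ [0, (-1 : ℤ)],
    ((s + t).val : ℤ) = s.val + t.val + (c + c)) (a i) (b i)
  exact ⟨∑ i, c i • emb (toF (cf8 i)), by
    simp only [lc, Pi.add_apply, (hc _).2, add_smul, Finset.sum_add_distrib]⟩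

theorem q0_lc (b : Fin 4 ⊕ Fin 4 → ZMod 2) : q0 (lc b) = quadFormPlus 4 (ZMod 2) b := by
  have h1 : ∀ i p, ((emb (toF (cf8 i)) - eps • emb (toF (cf8 i)) : leechLattice) : GolayPt → ℤ) p =
      getL 0 (tb8 i) (ix p) := by
    simp only [eps, LL.sub_sgn, emb_toF, mem_setOf']
    decide +kernel
  have h2 : lc b - eps • lc b =
      ∑ i, ((b i).val : ℤ) • (emb (toF (cf8 i)) - eps • emb (toF (cf8 i))) := by
    simp only [lc, Finset.smul_sum, smul_sub, Finset.sum_sub_distrib, smul_comm eps]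
  rw [q0, h2, sqNorm]
  simp only [AddSubmonoidClass.coe_finsetSum, Finset.sum_apply, AddSubgroup.coe_zsmul,
    Pi.smul_apply, h1, smul_eq_mul]
  revert b
  decide +kernel

end Cfsg.Agent.MonL.V10
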