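import Cfsg.Agent.MonL.V10b
import Cfsg.Agent.F24.F4Coord

/-! The orthogonal space `2^10` in the Monster. -/

set_option autoImplicit false

namespace Cfsg.Agent.MonL.V10

open Subgroup Cfsg Cfsg.Spor Cfsg.Agent.Spor Cfsg.Agent.Spor.Leech Cfsg.Agent.XSC.C1
  Cfsg.Agent.TT Cfsg.Agent.LES Cfsg.Agent.Spor.Co1Cent Cfsg.Agent.Mon

local notation "𝐍 " x:max => sqNorm ((x : leechLattice) : GolayPt → ℤ)
local notation "⟪" x ", " y "⟫" =>
  dotInt ((x : leechLattice) : GolayPt → ℤ) ((y : leechLattice) : GolayPt → ℤ)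

variable {G : Type} [Group G] {z : G} {Q : Subgroup G}
  {π : centralizer ({z} : Set G) →* Co1} {ψ : leechLattice → G} {u : centralizer ({z} : Set G)}

/-- A 2A element over the sign change on the octad. -/
structure Su (z : G) (Q : Subgroup G) (π : centralizer ({z} : Set G) →* Co1)
    (ψ : leechLattice → G) (u : centralizer ({z} : Set G)) : Prop extends If0 z Q π ψ where
  uA : (u : G) ∈ cA ψ
  uQ : (u : G) ∉ Q
  ue : (eps : Co1) = π u

/-- commutators with `u` -/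
def cc (ψ : leechLattice → G) (u : G) (v : leechLattice) : G := u * ψ v * u * (ψ v)⁻¹

/-- the last eight coordinates -/
def tl (a : Fin 5 ⊕ Fin 5 → ZMod 2) : Fin 4 ⊕ Fin 4 → ZMod 2 := a ∘ Sum.map Fin.succ Fin.succ

/-- adding two coordinates -/
def ex (b : Fin 4 ⊕ Fin 4 → ZMod 2) (s t : ZMod 2) : Fin 5 ⊕ Fin 5 → ZMod 2 :=
  Sum.elim (Fin.cons s (b ∘ .inl)) (Fin.cons t (b ∘ .inr))

theorem tl_ex (b : Fin 4 ⊕ Fin 4 → ZMod 2) (s t : ZMod 2) : tl (ex b s t) = b :=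
  funext fun i => by cases i <;> rfl

theorem quad_five (a : Fin 5 ⊕ Fin 5 → ZMod 2) : quadFormPlus 5 (ZMod 2) a =
    a (.inl 0) * a (.inr 0) + q0 (lc (tl a)) := by
  rw [q0_lc, quadFormPlus, Fin.sum_univ_succ]; rfl

theorem eq_zero_of_quad {a : Fin 5 ⊕ Fin 5 → ZMod 2} (h : ∀ b, quadFormPlus 5 (ZMod 2) (a + b) =
    quadFormPlus 5 (ZMod 2) b) : a = 0 := by
  have h0 := h 0
  have key : ∀ i, quadFormPlus 5 (ZMod 2) (a + Pi.single i 1) =
      quadFormPlus 5 (ZMod 2) a + a i.swap := fun i => by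
    cases i <;> simp [quadFormPlus, Pi.single_apply, add_mul, mul_add, Finset.sum_add_distrib]
  funext i
  have := key i.swap
  rw [h, ← add_zero a, h0, add_zero a, Sum.swap_swap] at this
  cases i <;> simpa [quadFormPlus, Pi.single_apply] using this.symm

namespace Su

variable (h : Su z Q π ψ u)
include h

theorem zz : z * z = 1 := h.mon.z_sq

theorem uu : (u : G) * u = 1 := h.toIf0.mul_self_A h.uA

/-- the hyperplane -/
def KK : Subgroup G where
  carrier := {k | ∃ x : leechLattice, eps • x = -x ∧ Eqv z k (ψ x)}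
  one_mem' := ⟨0, by simp, ((h.mon.triv 0).2 ⟨0, by simp⟩).symm h.zz⟩
  mul_mem' := fun ⟨x, hx, a⟩ ⟨y, hy, b⟩ =>
    ⟨x + y, by rw [smul_add, hx, hy, neg_add], h.toIf0.eqv_mul' a b⟩
  inv_mem' := fun ⟨x, hx, a⟩ => ⟨x, hx, Eqv.trans h.zz (h.toIf0.xs.inv (h.mon.mem_of_eqv a)) a⟩

theorem KK_le : h.KK ≤ Q := fun _ ⟨_, _, a⟩ => h.mon.mem_of_eqv a

theorem mem_of_eqv {k l : G} (hl : l ∈ h.KK) (e : Eqv z k l) : k ∈ h.KK :=
  let ⟨x, hx, a⟩ := hl; ⟨x, hx, e.trans h.zz a⟩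

theorem z_mem : z ∈ h.KK := h.mem_of_eqv (one_mem _) (Or.inr (one_mul z).symm)

theorem u_comm {k : G} (hk : k ∈ h.KK) : (u : G) * k = k * u :=
  let ⟨x, hx, a⟩ := hk
  h.toIf0.comm_of_fix h.ue h.uA h.uQ a ⟨x, by rw [hx, sub_neg_eq_add]⟩

theorem u_cc (v : leechLattice) : u * cc ψ u v = ψ v * u * (ψ v)⁻¹ := by
  rw [cc, ← mul_assoc, ← mul_assoc, ← mul_assoc, h.uu, one_mul]

theorem u_cc_mem (v : leechLattice) : u * cc ψ u v ∈ cA ψ := h.u_cc v ▸ conj_mem_cA h.uA _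

variable [Finite G]

theorem cc_eqv (v : leechLattice) : Eqv z (cc ψ u v) (ψ (v - eps • v)) :=
  h.toIf0.comm_eqv h.ue h.uA v

theorem cc_mem (v : leechLattice) : cc ψ u v ∈ h.KK := ⟨_, ng_sub v, h.cc_eqv v⟩

theorem exists_cc {k : G} (hk : k ∈ h.KK) : ∃ v, Eqv z k (cc ψ u v) := by
  obtain ⟨x, hx, a⟩ := hk
  obtain ⟨v, rfl⟩ := exists_sub hx
  exact ⟨v, a.trans h.zz ((h.cc_eqv v).symm h.zz)⟩

theorem norm32 (v : leechLattice) : 𝐍 (v - eps • v) % 32 = 0 := by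
  refine (h.mon.sq_iff (h.cc_eqv v)).1 ?_
  have := h.toIf0.mul_self_A (h.u_cc_mem v)
  rwa [mul_assoc, ← mul_assoc (cc ψ u v), ← h.u_comm (h.cc_mem v), ← mul_assoc, ← mul_assoc, h.uu,
    one_mul] at this

theorem KK_sq {k : G} (hk : k ∈ h.KK) : k * k = 1 :=
  let ⟨v, a⟩ := h.exists_cc hk
  (h.mon.sq_iff (a.trans h.zz (h.cc_eqv v))).2 (h.norm32 v)

theorem mem_A_iff {k : G} {v : leechLattice} (e : Eqv z k (cc ψ u v)) : k ∈ cA ψ ↔ q0 v = 1 := by
  have e1 := e.trans h.zz (h.cc_eqv v)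
  have hk := h.mon.mem_of_eqv e1
  rw [q0_eq_one (h.norm32 v)]
  constructor
  · intro ha
    obtain ⟨r, h1, h2⟩ := (h.toIf0.mem_A_iff hk).1 ha
    obtain ⟨-, y, h3, h4⟩ := h.toIf0.neg_of_mul o0_card h.ue h.uA ((e.symm h.zz).trans h.zz h1) h2
    rw [← norm_congr v h3, ← show r = v - eps • v + (y + y) from h4, h2]; rfl
  · intro hn
    have k0 : ¬ Eqv z k 1 := fun a => by
      obtain ⟨y, hy⟩ := h.toIf0.congr_of_eqv (a.trans h.zz (((h.mon.triv 0).2 ⟨0, by simp⟩).symm h.zz)) e1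
      exact not_short hy (Or.inl (by simp [sqNorm])) hn
    rcases h.toIf0.cases_Q hk (h.KK_sq (h.mem_of_eqv (h.cc_mem v) e)) with a | a | a
    · exact absurd (Or.inl a) k0
    · exact a
    rcases (h.toIf0.mem_B_iff hk).1 a with a | ⟨r, a, b⟩
    · exact absurd (Or.inr (a.trans (one_mul z).symm)) k0
    · obtain ⟨y, hy⟩ := h.toIf0.congr_of_eqv a e1
      exact absurd hn (not_short hy (Or.inr b))

theorem cc_add (v w : leechLattice) : cc ψ u v * cc ψ u w = cc ψ u (v + w) *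
    z ^ (if ⟪v, w - eps • w⟫ % 16 = 0 then 0 else 1 : ZMod 2).val := by
  have h1 := h.toIf0.quad h.ue h.uA h.uQ v w (k := cc ψ u v) (l := cc ψ u w) rfl rfl
  have h2 : Eqv z (cc ψ u v * cc ψ u w) (cc ψ u (v + w)) :=
    (h.toIf0.eqv_mul' (h.cc_eqv v) (h.cc_eqv w)).trans h.zz (by
      rw [← add_sub_add_comm, ← smul_add]; exact (h.cc_eqv _).symm h.zz)
  split_ifs with e
  · exact (h.toIf0.eq_of_eqv h.uQ (h.KK_le (h.cc_mem _)) (h1.2 e) (h.u_cc_mem _) h2).trans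
      (by rw [ZMod.val_zero, pow_zero, mul_one])
  · exact (h2.resolve_left fun a => e (h1.1 (a ▸ h.u_cc_mem _))).trans (by rw [ZMod.val_one, pow_one])

/-- a complement to `z` in the hyperplane -/
noncomputable def chi (_ : Su z Q π ψ u) (v : leechLattice) : G := cc ψ u v * z ^ (q0 v).val

theorem chi_mem (v : leechLattice) : h.chi v ∈ h.KK := mul_mem (h.cc_mem v) (pow_mem h.z_mem _)

theorem comm_KK {a b : G} (ha : a ∈ h.KK) (hb : b ∈ h.KK) : Commute a b :=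
  comm_of_sq_eq_one (fun _ => h.KK_sq) ha hb

theorem chi_add (v w : leechLattice) : h.chi (v + w) = h.chi v * h.chi w := by
  rw [chi, chi, chi, (h.comm_KK (pow_mem h.z_mem _) (h.cc_mem w)).mul_mul_mul_comm, h.cc_add,
    q0_add (h.norm32 v) (h.norm32 w), mul_assoc, ← F24.zpow_add h.zz, ← F24.zpow_add h.zz,
    add_comm (q0 v + q0 w)]

theorem chi_lc (a b : Fin 4 ⊕ Fin 4 → ZMod 2) : h.chi (lc (a + b)) = h.chi (lc a) * h.chi (lc b) := by
  obtain ⟨y, e⟩ := lc_add a b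
  rw [e, h.chi_add, h.chi_add, h.chi_add, h.KK_sq (h.chi_mem y), mul_one]

/-- the orthogonal space -/
def EE : Subgroup G where
  carrier := {e | e ∈ h.KK ∨ u * e ∈ h.KK}
  one_mem' := Or.inl (one_mem _)
  mul_mem' := fun {a b} ha hb => by
    have e : ∀ x, (u : G) * (u * x) = x := fun x => by rw [← mul_assoc, h.uu, one_mul]
    rcases ha with ha | ha <;> rcases hb with hb | hb
    · exact Or.inl (mul_mem ha hb)
    · exact Or.inr (by rw [← mul_assoc, h.u_comm ha, mul_assoc]; exact mul_mem ha hb)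
    · exact Or.inr (by rw [← mul_assoc]; exact mul_mem ha hb)
    · have := mul_mem ha hb
      rw [← mul_assoc, ← h.u_comm ha, e] at this
      exact Or.inl this
  inv_mem' := fun {a} ha => ha.imp inv_mem fun ha => by
    have := h.u_comm ha
    rw [mul_assoc, mul_right_inj] at this
    have h2 := inv_mem ha
    rwa [this, mul_inv_rev, h.toIf0.inv_A h.uA] at h2

theorem KK_le_EE : h.KK ≤ h.EE := fun _ => Or.inl

theorem u_mem : (u : G) ∈ h.EE := Or.inr (h.uu ▸ one_mem _)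

theorem EE_cases {e : G} (he : e ∈ h.EE) : e ∈ h.KK ∨ ∃ k ∈ h.KK, e = u * k :=
  Or.imp_right (fun a => ⟨_, a, by rw [← mul_assoc, h.uu, one_mul]⟩) he

theorem EE_sq {e : G} (he : e ∈ h.EE) : e * e = 1 := by
  rcases h.EE_cases he with a | ⟨k, a, rfl⟩
  · exact h.KK_sq a
  · rw [(show Commute k u from (h.u_comm a).symm).mul_mul_mul_comm, h.uu, h.KK_sq a, one_mul]

theorem comm_EE {a b : G} (ha : a ∈ h.EE) (hb : b ∈ h.EE) : Commute a b :=
  comm_of_sq_eq_one (fun _ => h.EE_sq) ha hb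

theorem mem_KK_of_Q {e : G} (he : e ∈ h.EE) (hQ : e ∈ Q) : e ∈ h.KK :=
  he.resolve_right fun a => h.uQ ((mul_mem_cancel_right hQ).1 (h.KK_le a))

theorem uz_mem : (u : G) * z ∈ h.EE := mul_mem h.u_mem (h.KK_le_EE h.z_mem)

/-- coordinates -/
noncomputable def ka : Multiplicative (Fin 5 ⊕ Fin 5 → ZMod 2) →* G :=
  MonoidHom.mk' (fun a => h.chi (lc (tl a.toAdd)) * z ^ (a.toAdd (.inl 0)).val *
    (u * z) ^ (a.toAdd (.inr 0)).val) fun a b => by
    have k : ∀ v (s : ℕ), h.chi v * z ^ s ∈ h.EE := fun v s =>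
      h.KK_le_EE (mul_mem (h.chi_mem v) (pow_mem h.z_mem _))
    rw [(h.comm_EE (pow_mem h.uz_mem _) (k _ _)).mul_mul_mul_comm,
      (h.comm_KK (pow_mem h.z_mem _) (h.chi_mem _)).mul_mul_mul_comm, ← h.chi_lc,
      ← F24.zpow_add h.zz, ← F24.zpow_add (h.EE_sq h.uz_mem)]
    rfl

theorem ka_apply (a : Fin 5 ⊕ Fin 5 → ZMod 2) : h.ka (Multiplicative.ofAdd a) =
    cc ψ u (lc (tl a)) * z ^ (q0 (lc (tl a)) + a (.inl 0)).val * (u * z) ^ (a (.inr 0)).val := by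
  rw [F24.zpow_add h.zz, ← mul_assoc]; rfl

theorem ka_mem_A (a : Fin 5 ⊕ Fin 5 → ZMod 2) :
    h.ka (Multiplicative.ofAdd a) ∈ cA ψ ↔ quadFormPlus 5 (ZMod 2) a = 1 := by
  have hc := h.cc_mem (lc (tl a))
  rw [h.ka_apply, quad_five]
  rcases Leech.zmod2_cases (a (.inr 0)) with e | e <;> rw [e]
  · rw [ZMod.val_zero, pow_zero, mul_one, mul_zero, zero_add]
    refine h.mem_A_iff ?_
    rcases Leech.zmod2_cases (q0 (lc (tl a)) + a (.inl 0)) with e | e <;> rw [e]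
    exacts [Or.inl (by rw [ZMod.val_zero, pow_zero, mul_one]),
      Or.inr (by rw [ZMod.val_one, pow_one])]
  · rw [ZMod.val_one, pow_one, mul_one, add_comm, ← mul_assoc,
      ← h.u_comm (mul_mem hc (pow_mem h.z_mem _)), ← mul_assoc]
    rcases Leech.zmod2_cases (a (.inl 0) + q0 (lc (tl a))) with e | e <;> rw [e]
    · rw [ZMod.val_zero, pow_zero, mul_one]
      exact iff_of_false (h.toIf0.not_both' h.uQ (h.KK_le hc) (h.u_cc_mem _)) zero_ne_one
    · rw [ZMod.val_one, pow_one, h.toIf0.xs.mul_z_z]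
      exact iff_of_true (h.u_cc_mem _) rfl

theorem ka_inj : Function.Injective h.ka := (injective_iff_map_eq_one _).2 fun a e =>
  eq_zero_of_quad (a := a.toAdd) fun b => by
    have h1 := h.ka_mem_A (a.toAdd + b)
    rw [ofAdd_add, map_mul, ofAdd_toAdd, e, one_mul, h.ka_mem_A] at h1
    revert h1
    generalize quadFormPlus 5 (ZMod 2) b = s
    generalize quadFormPlus 5 (ZMod 2) _ = t
    revert s t; decide

theorem ka_range : h.ka.range = h.EE := by
  have k1 : ∀ b s, h.ka (Multiplicative.ofAdd (ex b (q0 (lc b) + s) 0)) =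
      cc ψ u (lc b) * z ^ s.val := fun b s => by
    rw [h.ka_apply, tl_ex]
    change _ * z ^ (q0 (lc b) + (q0 (lc b) + s)).val * ((u : G) * z) ^ 0 = _
    rw [← add_assoc, CharTwo.add_self_eq_zero, zero_add, pow_zero, mul_one]
  have hQ : ∀ v, cc ψ u v ∈ Q := fun v => h.KK_le (h.cc_mem v)
  let f : (Fin 4 ⊕ Fin 4 → ZMod 2) → centralizer ({z} : Set G) := fun b =>
    u * ⟨_, LX_le_centralizer h.mon.lx (hQ (lc b))⟩
  have k2 : ∀ v, u * ⟨_, LX_le_centralizer h.mon.lx (hQ v)⟩ ∈ {t : centralizer ({z} : Set G) |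
      (t : G) ∈ cA ψ ∧ π t = (sgn _ o0_GC : Co0)} := fun v =>
    ⟨h.u_cc_mem v, by rw [map_mul, (h.mon.ker ⟨cc ψ u v, _⟩).2 (hQ v), mul_one, ← h.ue]; rfl⟩
  have k3 : Set.range f = _ := Set.eq_of_subset_of_ncard_le (by rintro _ ⟨b, rfl⟩; exact k2 _) (by
    rw [h.toIf0.ncard_over_sgn _ o0_card, Set.ncard_range_of_injective fun a b e => by
      have := (k1 a 0).trans ((congrArg (· * _) (mul_left_cancel (congrArg Subtype.val e))).trans
        (k1 b 0).symm)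
      exact (tl_ex a _ 0).symm.trans ((congrArg tl (h.ka_inj this)).trans (tl_ex b _ 0))]
    simp)
  have k4 : h.KK ≤ h.ka.range := fun k hk => by
    obtain ⟨v, e⟩ := h.exists_cc hk
    obtain ⟨b, e1⟩ := k3.ge (k2 v)
    rw [← show cc ψ u (lc b) = cc ψ u v from mul_left_cancel (congrArg Subtype.val e1)] at e
    rcases e with rfl | rfl
    exacts [⟨_, (k1 b 0).trans (by rw [ZMod.val_zero, pow_zero, mul_one])⟩, ⟨_, (k1 b 1).trans (by rw [ZMod.val_one, pow_one])⟩]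
  refine le_antisymm ?_ fun e he => ?_
  · rintro _ ⟨a, rfl⟩
    exact mul_mem (h.KK_le_EE (mul_mem (h.chi_mem _) (pow_mem h.z_mem _))) (pow_mem h.uz_mem _)
  rcases h.EE_cases he with a | ⟨k, a, rfl⟩
  · exact k4 a
  refine mul_mem ((mul_mem_cancel_right (k4 h.z_mem)).1 ((mul_mem_cancel_left
    (k4 (mul_mem (h.cc_mem (lc 0)) (pow_mem h.z_mem (q0 (lc 0) + 0).val)))).1 ?_)) (k4 a)
  refine ⟨Multiplicative.ofAdd (ex 0 0 1), ?_⟩
  rw [h.ka_apply, tl_ex]
  change _ * ((u : G) * z) ^ (1 : ZMod 2).val = _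
  rw [ZMod.val_one, pow_one]; rfl

theorem card_EE : Nat.card h.EE = 2 ^ 10 := by
  rw [← h.ka_range, ← Nat.card_congr (MonoidHom.ofInjective h.ka_inj).toEquiv]
  simp

theorem card_KK : Nat.card h.KK = 2 ^ 9 := by
  have := card_eq_two_mul_of_mul_mem h.KK_le_EE h.u_mem (fun a => h.uQ (h.KK_le a))
    fun x hx a => h.comm_EE h.u_mem hx ▸ hx.resolve_left a
  rw [h.card_EE] at this
  omega

end Su

end Cfsg.Agent.MonL.V10
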