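import Cfsg.Agent.MonL.V10c

/-! The centralizer of the orthogonal space `2^10` in the Monster. -/

set_option autoImplicit false

namespace Cfsg.Agent.MonL.V10

open Subgroup Cfsg Cfsg.Spor Cfsg.Agent.Spor Cfsg.Agent.Spor.Leech Cfsg.Agent.XSC.C1
  Cfsg.Agent.TT Cfsg.Agent.LES Cfsg.Agent.Spor.Co1Cent Cfsg.Agent.Mon Cfsg.Agent.LES.Co

local notation "𝐄" => Subgroup.map (QuotientGroup.mk' (center Co0)) E
local notation "𝐂[" x "]" => centralizer (SetLike.coe (x : Subgroup _))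
local notation "𝐍[" x "]" => normalizer (SetLike.coe (x : Subgroup _))

theorem exists_cent_lift {G : Type*} [Group G] [Finite G] {Q A : Subgroup G} {z a : G}
    (h : XS Q z) (hA : A ≤ Q) (ha : a * z = z * a) (e : ∀ x ∈ A, Eqv z (a * x * a⁻¹) x) :
    ∃ q ∈ Q, q * a ∈ 𝐂[A] := by
  have h1 : ∀ x ∈ A, x ∉ centralizer ({a} : Set G) → a * x * a⁻¹ = x * z := fun x hx hc =>
    (e x hx).resolve_left fun e => hc (mem_centralizer_singleton_iff.2 (comm_of_conj_eq e).symm)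
  obtain ⟨q, hq, e⟩ := h.exists_centralizer_eq hA (B := A ⊓ centralizer {a})
    inf_le_left (fun hz => ⟨hz, mem_centralizer_singleton_iff.2 ha.symm⟩)
    fun x hx y hy hx' hy' => ⟨mul_mem hx hy, mem_centralizer_singleton_iff.2 (comm_of_conj_eq (by
      rw [← conj_mul, h1 x hx fun e => hx' ⟨hx, e⟩, h1 y hy fun e => hy' ⟨hy, e⟩, mul_assoc,
        ← mul_assoc z, ← h.z_comm y (hA hy), h.mul_z_z])).symm⟩
  refine ⟨q, hq, fun x hx => (comm_of_conj_eq ?_).symm⟩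
  rw [show q * a * x * _ = q * (a * x * a⁻¹) * q⁻¹ by simp [mul_assoc]]
  by_cases hc : x ∈ centralizer ({a} : Set G)
  · rw [conj_eq_of_comm (mem_centralizer_singleton_iff.1 hc).symm,
      conj_eq_of_comm ((e x hx).2 ⟨hx, hc⟩)]
  · rw [h1 x hx hc, ← conj_mul, h.conj_of_ne hq (hA hx) fun e' => hc ((e x hx).1 e').2,
      conj_eq_of_comm (h.z_comm q hq), h.mul_z_z]

variable {G : Type} [Group G] [Finite G] {z : G} {Q : Subgroup G}
  {π : centralizer ({z} : Set G) →* Co1} {ψ : leechLattice → G} {u : centralizer ({z} : Set G)}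

namespace Su

variable (h : Su z Q π ψ u)
include h

theorem mem_Q {a b : centralizer ({z} : Set G)} (e : π a = π b) : (a : G)⁻¹ * b ∈ Q :=
  (h.mon.ker (a⁻¹ * b)).1 (by rw [map_mul, map_inv, e, inv_mul_cancel])

theorem eq_of_over {t : centralizer ({z} : Set G)} (ht : (t : G) ∈ cA ψ) (e : π t = eps) :
    ∃ v, (t : G) = u * cc ψ u v :=
  ((h.toIf0.mul_mem_iff h.ue h.uA h.uQ (h.mem_Q (h.ue.symm.trans e.symm))).1
    (by rwa [mul_inv_cancel_left])).imp fun _ hv => inv_mul_eq_iff_eq_mul.1 hv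

theorem conj_u {a : centralizer ({z} : Set G)} (e : π a * eps = eps * π a) :
    ∃ v, a * u * (a : G)⁻¹ = u * cc ψ u v :=
  h.eq_of_over (t := a * u * a⁻¹) (conj_mem_cA h.uA _) (by
    rw [map_mul, map_mul, map_inv, ← h.ue, e, mul_inv_cancel_right])

theorem norm_of_comm {a : centralizer ({z} : Set G)} (e : π a * eps = eps * π a) :
    (a : G) ∈ 𝐍[h.EE] := by
  obtain ⟨g, hg⟩ := QuotientGroup.mk_surjective (π a)
  have h1 : g * eps = eps * g := comm_of_tr (mk_eq_mk_Co1.1 (by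
    rw [QuotientGroup.mk_mul, QuotientGroup.mk_mul, QuotientGroup.mk_inv, hg, e,
      mul_inv_cancel_right])) (by rw [tr_eps]; norm_num)
  have h2 : ∀ k ∈ h.KK, a * k * (a : G)⁻¹ ∈ h.KK := fun k ⟨x, hx, b⟩ =>
    ⟨g • x, by rw [← mul_smul, ← h1, mul_smul, hx, smul_neg], h.mon.conj_eqv hg b⟩
  refine mem_normalizer_fintype fun x hx => ?_
  rcases h.EE_cases hx with b | ⟨k, b, rfl⟩
  · exact h.KK_le_EE (h2 x b)
  obtain ⟨v, hv⟩ := h.conj_u e
  rw [← conj_mul, hv]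
  exact mul_mem (mul_mem h.u_mem (h.KK_le_EE (h.cc_mem v))) (h.KK_le_EE (h2 k b))

theorem z_memE : z ∈ h.EE := h.KK_le_EE h.z_mem

theorem EE_le_O : h.EE ≤ 𝐂[h.EE] := fun _ hx _ hy => h.comm_EE hy hx

theorem O_le_C : 𝐂[h.EE] ≤ centralizer ({z} : Set G) :=
  centralizer_le (Set.singleton_subset_iff.2 h.z_memE)

theorem pi_E {a : centralizer ({z} : Set G)} (ha : (a : G) ∈ h.EE) : π a = 1 ∨ π a = eps := by
  rcases h.EE_cases ha with b | ⟨k, b, e⟩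
  · exact Or.inl ((h.mon.ker a).2 (h.KK_le b))
  · refine Or.inr ?_
    rw [show a = u * ⟨k, LX_le_centralizer h.mon.lx (h.KK_le b)⟩ from Subtype.ext e, map_mul,
      (h.mon.ker ⟨k, _⟩).2 (h.KK_le b), mul_one, h.ue]

theorem comm_of_norm {a : centralizer ({z} : Set G)} (ha : (a : G) ∈ 𝐍[h.EE]) :
    π a * eps = eps * π a := by
  rcases h.pi_E (a := a * u * a⁻¹) ((mem_normalizer_iff.1 ha _).1 h.u_mem) with e | e
  · exact absurd ((h.toIf0.conj_mem_Q_iff a).1 ((h.mon.ker _).1 e)) h.uQ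
  · rwa [map_mul, map_mul, map_inv, ← h.ue, mul_inv_eq_iff_eq_mul] at e

theorem Q_le_N : Q ≤ 𝐍[h.EE] := fun q hq =>
  h.norm_of_comm (a := ⟨q, LX_le_centralizer h.mon.lx hq⟩) (by
    rw [(h.mon.ker ⟨q, _⟩).2 hq, one_mul, mul_one])

theorem card_NC : Nat.card (𝐍[h.EE] ⊓ centralizer ({z} : Set G) : Subgroup G) =
    89181388800 * 2 ^ 25 := by
  rw [← Grp.card_subgroupOf, show (𝐍[h.EE]).subgroupOf _ = (centralizer {(eps : Co1)}).comap π from
    Subgroup.ext fun a => ⟨fun e => mem_centralizer_singleton_iff.2 (h.comm_of_norm e),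
      fun e => h.norm_of_comm (mem_centralizer_singleton_iff.1 e)⟩,
    Grp.card_comap_of_surjective π h.mon.surj, card_cent_eps,
    show π.ker = Q.subgroupOf _ from Subgroup.ext h.mon.ker,
    Grp.card_subgroupOf_of_le (LX_le_centralizer h.mon.lx), h.mon.card]

theorem pi_cent {a : centralizer ({z} : Set G)} (ha : (a : G) ∈ 𝐂[h.KK]) : π a ∈ 𝐄 := by
  obtain ⟨g, hg⟩ := QuotientGroup.mk_surjective (π a)
  exact hg ▸ mem_E_of_fix fun x hx =>
    h.mon.congr_of_comm hg (Eqv.refl _ _) (ha _ ⟨x, hx, Eqv.refl _ _⟩).symm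

theorem cent_K : 𝐂[h.KK] = 𝐂[h.EE] := by
  refine le_antisymm (fun a ha => ?_) (centralizer_le h.KK_le_EE)
  obtain ⟨v, hv⟩ := h.conj_u (a := ⟨a, centralizer_le (Set.singleton_subset_iff.2 h.z_mem) ha⟩)
    (lxE.z_comm _ (h.pi_cent ha))
  have h1 : a * u = u * a := by
    refine comm_of_conj_eq (hv.trans ?_)
    refine (h.mon.lx.cent _ (h.KK_le (h.cc_mem v)) fun y hy => ?_).elim (fun e => by rw [e, mul_one])
      fun e => absurd (by simpa only [e] using h.u_cc_mem v) (h.nz u h.uA h.uQ)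
    obtain ⟨w, hw⟩ := h.mon.onto y hy
    rw [h.mon.comm_iff (h.cc_eqv v) hw, dot_sub,
      ← h.toIf0.quad h.ue h.uA h.uQ v w (k := cc ψ u v) (l := cc ψ u w) rfl rfl, ← mul_assoc, ← hv,
      ← conj_eq_of_comm (ha _ (h.cc_mem w)).symm, conj_mul]
    exact conj_mem_cA (h.u_cc_mem w) _
  intro x hx
  rcases h.EE_cases hx with b | ⟨k, b, rfl⟩
  · exact ha x b
  · rw [mul_assoc, ha k b, ← mul_assoc, ← h1, mul_assoc]

theorem exists_lift {t : Co1} (ht : t ∈ 𝐄) :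
    ∃ a : centralizer ({z} : Set G), (a : G) ∈ 𝐂[h.EE] ∧ π a = t := by
  obtain ⟨g, hg, rfl⟩ := ht
  obtain ⟨a, ha⟩ := h.mon.exists_lift g
  obtain ⟨q, hq, e⟩ := exists_cent_lift h.toIf0.xs h.KK_le (MonData.comm_z a)
    fun x ⟨v, hv, b⟩ => (h.mon.conj_eqv ha b).trans h.zz (by rw [hg v hv]; exact b.symm h.zz)
  exact ⟨⟨q, LX_le_centralizer h.mon.lx hq⟩ * a, h.cent_K.le e, by
    rw [map_mul, (h.mon.ker ⟨q, _⟩).2 hq, one_mul, ← ha]; rfl⟩

theorem card_Y : Nat.card (Q ⊓ 𝐂[h.EE] : Subgroup G) = 2 ^ 17 := by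
  have := h.toIf0.xs.card_mul_card_centralizer h.KK_le h.z_mem
  rw [h.card_KK, h.mon.card, h.cent_K] at this
  omega

theorem card_O : Nat.card (𝐂[h.EE]) = 2 ^ 26 := by
  have := Grp.card_map_mul_card_ker_inf π ((𝐂[h.EE]).subgroupOf _)
  rw [show ((𝐂[h.EE]).subgroupOf _).map π = 𝐄 from le_antisymm
      (by rintro _ ⟨a, ha, rfl⟩; exact h.pi_cent (h.cent_K.ge ha)) fun _ => h.exists_lift,
    card_map_E ker2, show π.ker = Q.subgroupOf _ from Subgroup.ext h.mon.ker,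
    show _ ⊓ _ = (Q ⊓ 𝐂[h.EE]).subgroupOf _ from rfl,
    Grp.card_subgroupOf_of_le (inf_le_right.trans h.O_le_C), h.card_Y,
    Grp.card_subgroupOf_of_le h.O_le_C] at this
  exact this.symm

theorem mem_K_of_comm {x : G} (hx : x ∈ Q) (e : ∀ y ∈ Q ⊓ 𝐂[h.EE], y * x = x * y) : x ∈ h.KK :=
  h.toIf0.xs.mem_of_comm_centralizer h.KK_le h.z_mem hx fun q hq hc => e q ⟨hq, h.cent_K.le hc⟩

theorem mem_E_of_cent {x : G} (hx : x ∈ 𝐂[h.EE]) (e : ∀ y ∈ 𝐂[h.EE], y * x = x * y) :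
    x ∈ h.EE := by
  refine (lxE.cent _ (h.pi_cent (a := ⟨x, h.O_le_C hx⟩) (h.cent_K.ge hx)) fun t ht => ?_).elim
    (fun a => h.KK_le_EE (h.mem_K_of_comm ((h.mon.ker _).1 a) fun y hy => e y hy.2))
    fun a => Or.inr (h.mem_K_of_comm ?_ fun y hy => ?_)
  · obtain ⟨b, hb, rfl⟩ := h.exists_lift ht
    rw [← map_mul, ← map_mul]
    exact congrArg π (Subtype.ext (e b hb).symm)
  · simpa only [h.toIf0.inv_A h.uA] using h.mem_Q (h.ue.symm.trans a.symm)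
  · rw [← mul_assoc, ← hy.2 _ h.u_mem, mul_assoc, e y hy.2, mul_assoc]

theorem fill {Z : Subgroup G} (hZ : Z ≤ 𝐂[h.EE])
    (hn : ∀ c ∈ 𝐍[h.EE], c * z = z * c → ∀ x ∈ Z, c * x * c⁻¹ ∈ Z) (hY : Q ⊓ 𝐂[h.EE] ≤ Z)
    (hu : (u : G) ∈ Z) {a : centralizer ({z} : Set G)} (ha : (a : G) ∈ Z) (h1 : π a ≠ 1)
    (h2 : π a ≠ eps) (h3 : π a * π a = 1) : 𝐂[h.EE] ≤ Z := fun x hx => by
  obtain ⟨y, hy, e⟩ := le_of_normal (D := (Z.subgroupOf _).map π) lxE (card_map_E ker2)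
    card_cent_eps (by rintro _ ⟨a, ha, rfl⟩; exact h.pi_cent (h.cent_K.ge (hZ ha)))
    ⟨u, hu, h.ue.symm⟩ (by
      rintro c hc _ ⟨d, hd, rfl⟩
      obtain ⟨c, rfl⟩ := h.mon.surj c
      exact ⟨c * d * c⁻¹, hn c (h.norm_of_comm hc) (MonData.comm_z c) d hd, by simp⟩)
    ⟨a, ha, rfl⟩ h1 h2 h3 (h.pi_cent (a := ⟨x, h.O_le_C hx⟩) (h.cent_K.ge hx))
  exact (mul_mem_cancel_left (Z.inv_mem hy)).1 (hY ⟨h.mem_Q e, mul_mem (Subgroup.inv_mem _ (hZ hy)) hx⟩)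

end Su

end Cfsg.Agent.MonL.V10
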