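import Cfsg.Agent.MonL.V10d

/-! An element normalizing the orthogonal space `2^10` and moving `z`. -/

set_option autoImplicit false

namespace Cfsg.Agent.MonL.V10

open Subgroup Cfsg Cfsg.Spor Cfsg.Agent.Spor Cfsg.Agent.Spor.Leech Cfsg.Agent.XSC.C1
  Cfsg.Agent.TT Cfsg.Agent.LES Cfsg.Agent.Spor.Co1Cent Cfsg.Agent.Mon Cfsg.Agent.LES.Co

local notation "𝐨" => setOf' 5279
local notation "𝐂[" x "]" => centralizer (SetLike.coe (x : Subgroup _))
local notation "𝐍[" x "]" => normalizer (SetLike.coe (x : Subgroup _))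

variable {G : Type} [Group G] [Finite G] {z : G} {Q : Subgroup G}
  {π : centralizer ({z} : Set G) →* Co1} {ψ : leechLattice → G} {u : centralizer ({z} : Set G)}

namespace Su

variable (h : Su z Q π ψ u)
include h

theorem exists_conj_u {t : centralizer ({z} : Set G)} (ht : (t : G) ∈ cA ψ) (hQ : (t : G) ∉ Q) :
    ∃ c : G, c * z * c⁻¹ = z ∧ c * u * c⁻¹ = t := by
  obtain ⟨k, hk⟩ := QuotientGroup.mk_surjective (π t)
  obtain ⟨x, hx⟩ := ker2.isConj ((h.isA t k hk ht hQ).isConj (h.isA u _ h.ue h.uA h.uQ))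
  obtain ⟨c, hc⟩ := h.mon.exists_lift x
  obtain ⟨v, hv⟩ := h.eq_of_over (t := c * t * c⁻¹) (conj_mem_cA ht _) (by
    rw [map_mul, map_mul, map_inv, ← hc, ← hk]; exact hx)
  rw [h.u_cc, coe_mul, coe_mul, coe_inv] at hv
  refine ⟨(c : G)⁻¹ * ψ v, conj_eq_of_comm (comm_mul_left (comm_inv_left (MonData.comm_z c))
    (h.mon.lx.z_comm _ (h.mon.mem v))), ?_⟩
  calc _ = (c : G)⁻¹ * (ψ v * u * (ψ v)⁻¹) * c := by group
    _ = _ := by rw [← hv]; group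

theorem norm_of_le {g : G} (e : h.KK ≤ h.EE.map (MulAut.conj g).toMonoidHom) : g ∈ 𝐍[h.EE] := by
  have h1 : g ∈ 𝐍[𝐂[h.EE]] := mem_normalizer_fintype fun a ha => h.cent_K.le fun k hk => by
    obtain ⟨x, hx, rfl⟩ := e hk
    exact (conj_mul.trans (congrArg (g * · * g⁻¹) (ha x hx))).trans conj_mul.symm
  refine mem_normalizer_fintype fun x hx => h.mem_E_of_cent
    ((mem_normalizer_iff.1 h1 _).1 (h.EE_le_O hx)) fun y hy => ?_
  have := (mem_normalizer_iff''.1 h1 y).1 hy x hx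
  calc _ = g * (g⁻¹ * y * g * x) * g⁻¹ := by group
    _ = _ := by rw [← this]; group

theorem exists_move : ∃ g ∈ 𝐍[h.EE], ∃ P, LXPair Q P z (g * z * g⁻¹) ∧ Nat.card P = 2 ^ 25 ∧
    Eqv z (g * z * g⁻¹) (ψ (e8 (pt 0))) := by
  have hs : Eqv z (ψ (e8 (pt 0))) (ψ (e8 (pt 0))) := Eqv.refl _ _
  have hB := h.toIf0.mem_B_of_eqv hs (sqNorm_e8 _)
  obtain ⟨P, hp, hP, hin⟩ := h.toIf0.exists_pair hB (h.mon.mem _)
    (h.mon.ne_of_short hs (by rw [sqNorm_e8]; norm_num) (sqNorm_e8 _).le).2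
  have hx := h.toIf0.mem_A_of_eqv (Eqv.refl _ (ψ (two_ind _ o0_GC))) (by decide +kernel)
  let y : leechLattice :=
    ⟨Pi.single (pt 0) 4 + Pi.single none 4, single_add_single_mem_leech _ _ rfl rfl rfl⟩
  have h1 : ψ y ∈ P := h.toIf0.mem_of_four hp hP hs (Eqv.refl _ _) fun l => by
    simp only [y, Pi.add_apply, Pi.single_apply]; split_ifs <;> rfl
  have h2 := h.toIf0.xs.conj_of_ne (h.mon.mem y) (h.mon.mem (two_ind _ o0_GC)) fun e =>
    absurd ((h.mon.comm_iff (Eqv.refl _ _) (Eqv.refl _ _)).1 e) (by decide +kernel)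
  have h3 : ψ (two_ind _ o0_GC) * ψ (e8 (pt 0)) = ψ (e8 (pt 0)) * _ :=
    (h.mon.comm_iff (Eqv.refl _ _) hs).2 (by decide +kernel)
  obtain ⟨g, hg⟩ := isConj_iff.1 hB
  obtain ⟨c, c1, c2⟩ := h.exists_conj_u (t := ⟨g⁻¹ * ψ (two_ind _ o0_GC) * g,
    mem_centralizer_singleton_iff.2 (by
      calc _ = g⁻¹ * (ψ (two_ind _ o0_GC) * (g * z * g⁻¹)) * g := by group
        _ = _ := by rw [hg, h3, ← hg]; group)⟩) (by simpa using conj_mem_cA hx g⁻¹) fun e => by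
      rcases hp.hP.toXS.conj h1 ((hin _).1 ⟨g, hg, e⟩) with a | a <;> rw [h2] at a
      exacts [h.mon.lx.z_ne (mul_eq_left.1 a), hp.ne (mul_left_cancel a).symm]
  have e1 : g * c * z * (g * c)⁻¹ = ψ (e8 (pt 0)) := by
    calc _ = g * (c * z * c⁻¹) * g⁻¹ := by group
      _ = _ := by rw [c1, hg]
  have e2 : g * c * u * (g * c)⁻¹ = ψ (two_ind _ o0_GC) := by
    calc _ = g * (c * u * c⁻¹) * g⁻¹ := by group
      _ = _ := by rw [c2]; group
  generalize g * c = k at e1 e2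
  let F := h.EE.map (MulAut.conj k).toMonoidHom
  have k1 : ψ (two_ind _ o0_GC) ∈ F := ⟨_, h.u_mem, e2⟩
  have k2 : ∀ p ∈ P, p * ψ (two_ind _ o0_GC) * p⁻¹ ∈ F := fun p a => by
    refine ⟨_, (mem_normalizer_iff.1 (h.Q_le_N ((hp.compat k e1 (k⁻¹ * p * k)).2
      (by simpa [mul_assoc] using a))) _).1 h.u_mem, ?_⟩
    rw [← e2]; simp [mul_assoc]
  have k3 : z ∈ F := (mul_mem_cancel_left k1).1 (h2 ▸ k2 _ h1)
  let H : AddSubgroup leechLattice :=
    { carrier := {x | ψ x ∈ F}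
      zero_mem' := ((h.mon.triv 0).2 ⟨0, by simp⟩).mem k3 (one_mem _)
      add_mem' := fun a b => (h.mon.add _ _).mem k3 (mul_mem a b)
      neg_mem' := fun a => ((h.toIf0.eqv_neg (Eqv.refl _ _)).symm h.zz).mem k3 a }
  refine ⟨k, h.norm_of_le fun x ⟨v, hv, a⟩ => a.mem k3 (ng_induction H k1 ⟨_, h.z_memE, e1⟩
    (fun T h2 hT => ?_) hv), P, e1 ▸ hp, hP, e1 ▸ hs⟩
  obtain ⟨f, hf, rfl⟩ := LL.exists_GC_even o0_GC (Or.inl o0_card) hT h2
  obtain ⟨b, hb, hbc⟩ := MonData.mem_preim.1 ((h.mon.preim_eq hp hP hs).ge (sgn_mem_sgnSub f hf))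
  have := h.toIf0.comm_eqv' hbc (Eqv.refl _ (ψ (two_ind _ o0_GC)))
  rw [show _ - _ = w4 _ h2 from Subtype.ext (funext fun i => by
    rw [LL.sub_sgn]
    simp only [two_ind, w4, Finset.mem_inter]
    by_cases a : i ∈ f <;> by_cases b : i ∈ 𝐨 <;> simp [a, b])] at this
  exact (this.symm h.zz).mem k3 (mul_mem (k2 _ hb) (inv_mem k1))

end Su

end Cfsg.Agent.MonL.V10
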