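import Cfsg.Agent.MonL.V10e
import Cfsg.Agent.MonL.SLProd
import Cfsg.Agent.Grp.FourOdd

/-! The normalizer of the orthogonal space `2^10` induces `Ω₁₀⁺(2)`. -/

set_option autoImplicit false

namespace Cfsg.Agent.MonL.V10

open Subgroup Cfsg Cfsg.Spor Cfsg.Agent.Spor Cfsg.Agent.Spor.Leech Cfsg.Agent.XSC.C1
  Cfsg.Agent.TT Cfsg.Agent.LES Cfsg.Agent.Spor.Co1Cent Cfsg.Agent.Mon Cfsg.Agent.LES.Co Matrix

local notation "𝐂[" x "]" => centralizer (SetLike.coe (x : Subgroup _))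
local notation "𝐍[" x "]" => normalizer (SetLike.coe (x : Subgroup _))

theorem exists_iso_hom {G : Type*} [Group G] {ι : Type} [Fintype ι] [DecidableEq ι]
    (u : Multiplicative (ι → ZMod 2) →* G) (hu : Function.Injective u) (q : (ι → ZMod 2) → ZMod 2)
    (S : Set G) (hS : ∀ g x, g * x * g⁻¹ ∈ S ↔ x ∈ S)
    (hq : ∀ a, u (Multiplicative.ofAdd a) ∈ S ↔ q a = 1) :
    ∃ ρ : 𝐍[u.range] →* isometryGroup (ZMod 2) q, ρ.ker = (𝐂[u.range]).subgroupOf _ := by
  let φ := KSG.indAut₀ u hu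
  let f : 𝐍[u.range] → (ι → ZMod 2) →ₗ[ZMod 2] (ι → ZMod 2) := fun l =>
    AddMonoidHom.toZModLinearMap 2
      { toFun := fun a => (φ l (Multiplicative.ofAdd a)).toAdd
        map_zero' := by simp
        map_add' := fun a b => by simp [ofAdd_add] }
  let m : 𝐍[u.range] →* Matrix ι ι (ZMod 2) :=
    { toFun := fun l => LinearMap.toMatrix' (f l)
      map_one' := by
        rw [show f 1 = LinearMap.id from LinearMap.ext fun a => by
          change (φ 1 _).toAdd = a
          rw [map_one]; rfl, LinearMap.toMatrix'_id]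
      map_mul' := fun l l' => by
        rw [← LinearMap.toMatrix'_comp]
        refine congrArg _ (LinearMap.ext fun a => ?_)
        change (φ (l * l') _).toAdd = _
        rw [map_mul]; rfl }
  have hm : ∀ (l : 𝐍[u.range]) a, u (Multiplicative.ofAdd (m l *ᵥ a)) =
      l * u (Multiplicative.ofAdd a) * (l : G)⁻¹ := fun l a => by
    change u (Multiplicative.ofAdd (LinearMap.toMatrix' (f l) *ᵥ a)) = _
    rw [LinearMap.toMatrix'_mulVec]
    exact KSG.indAut₀_spec u hu l _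
  refine ⟨m.toHomUnits.codRestrict _ fun l a _ => ?_, Subgroup.ext fun l => ⟨fun e => ?_,
    fun e => Subtype.ext (Units.ext (Matrix.mulVec_injective (funext fun a => ?_)))⟩⟩
  · have := (hq (m l *ᵥ a)).symm.trans (by rw [hm, hS, hq])
    change q (m l *ᵥ a) = q a
    revert this
    generalize q a = s
    generalize q _ = t
    revert s t; decide
  · rintro _ ⟨a, rfl⟩
    have := hm l a.toAdd
    rw [show m l = 1 from congrArg (fun t => t.1.1) e, one_mulVec] at this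
    exact (comm_of_conj_eq this.symm).symm
  · exact (hu ((hm l a).trans (conj_eq_of_comm (e _ ⟨_, rfl⟩).symm))).trans (one_mulVec a).symm

theorem card_Op10 : Nat.card (Omega (ZMod 2) (quadFormPlus 5 (ZMod 2))) = 23499295948800 := by
  have := Class.Orth.card_POmega_plus (F := ZMod 2) (m := 4) (by norm_num)
  rw [Comp.Kron.card_Omega_plus_two rfl (by norm_num)]
  simpa [Finset.prod_range_succ] using this

theorem simple_Op10 : IsSimpleGroup (Omega (ZMod 2) (quadFormPlus 5 (ZMod 2))) :=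
  have := Class.Orth.isSimpleGroup_POmega (Class.Orth.plusQF 5 (ZMod 2)) _
    (Class.Orth.plusQF_apply 5 _) (Class.Orth.nd_plusQF 5 _) (by simp)
  LXO.simple_of_card_eq (Comp.Kron.card_Omega_plus_two rfl (by norm_num))

theorem card_GO10 : Nat.card (isometryGroup (ZMod 2) (quadFormPlus 5 (ZMod 2))) =
    46998591897600 := by
  rw [S0287.result (q := 2) (by simp) 5 (by norm_num)]; decide

theorem eq_527 {n m : ℕ} (h1 : n * 44590694400 ∣ 46998591897600) (h2 : n ≤ 1024) (h3 : m ≤ n)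
    (h4 : 90 ∣ m) (h5 : m ≠ 0) : n = 527 := by
  have h6 : n ∣ 1054 := Nat.dvd_of_mul_dvd_mul_right (by norm_num) h1
  have h7 : 90 ≤ n := by omega
  obtain ⟨k, hk⟩ := h6
  have : k < 12 := by nlinarith
  interval_cases k <;> omega

theorem dvd_90 {m d : ℕ} (h1 : m * d = 89181388800 * 2 ^ 25) (h2 : d ∣ 2 ^ 35 * 244823040) :
    90 ∣ m := by
  obtain ⟨c, hc⟩ := h2
  have : m * (2 ^ 35 * 244823040) = 89181388800 * 2 ^ 25 * c := by rw [hc, ← mul_assoc, h1]
  omega

variable {G : Type} [Group G] [Finite G] {z : G} {Q : Subgroup G}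
  {π : centralizer ({z} : Set G) →* Co1} {ψ : leechLattice → G} {u : centralizer ({z} : Set G)}

namespace Su

variable (h : Su z Q π ψ u)
include h

theorem card_zs {P : Subgroup G} {s : G} (hp : LXPair Q P z s) (hP : Nat.card P = 2 ^ 25)
    (hs : Eqv z s (ψ (e8 (pt 0)))) :
    Nat.card (centralizer ({z} : Set G) ⊓ centralizer {s} : Subgroup G) = 2 ^ 35 * 244823040 := by
  obtain ⟨y, hy⟩ := e8_congr (pt 0) none
  obtain ⟨θ, h1, h2, -⟩ := exists_theta h.mon hp hP (h.toIf0.eqv_congr hs (hy.trans (two_nsmul y)))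
  have := θ.ker.card_mul_index
  rw [index_ker, MonoidHom.range_eq_top.2 h1, card_top, M24C.card_M24,
    show θ.ker = (RR Q P z s).subgroupOf _ from Subgroup.ext h2, Grp.card_subgroupOf_of_le
      (H := RR Q P z s) fun r hr => Mont.mem_cent2.2 (hp.R_comm hr), card_RR h.mon hp hP] at this
  rw [this, show _ ⊓ _ = centralizer {z, s} from Subgroup.ext fun c => by
    rw [Mont.mem_cent2, mem_inf, mem_centralizer_singleton_iff, mem_centralizer_singleton_iff]]

theorem exists_rho : {t | ∃ k ∈ 𝐍[h.EE], k * z * k⁻¹ = t}.ncard = 527 ∧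
    ∃ ρ : 𝐍[h.EE] →* Omega (ZMod 2) (quadFormPlus 5 (ZMod 2)), Function.Surjective ρ ∧
      ρ.ker = (𝐂[h.EE]).subgroupOf _ := by
  obtain ⟨ρ, hk⟩ : ∃ ρ : 𝐍[h.EE] →* isometryGroup (ZMod 2) (quadFormPlus 5 (ZMod 2)),
      ρ.ker = (𝐂[h.EE]).subgroupOf _ := h.ka_range ▸ exists_iso_hom h.ka h.ka_inj _ (cA ψ)
        (fun g _ => conj_mem_cA_iff g) h.ka_mem_A
  obtain ⟨g, hg, P, hp, hP, hs⟩ := h.exists_move
  have h1 := Grp.FourOdd.ncard_conj (𝐍[h.EE]) z
  have h2 := Grp.FourOdd.ncard_conj (𝐍[h.EE] ⊓ centralizer {z}) (g * z * g⁻¹)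
  have h3 := card_dvd_of_le (inf_le_inf_right (centralizer {g * z * g⁻¹})
    (inf_le_right (a := 𝐍[h.EE]) (b := centralizer {z})))
  have h4 := ρ.ker.card_mul_index
  rw [index_ker, hk, Grp.card_subgroupOf_of_le (centralizer_le_normalizer _), h.card_O, ← h1,
    h.card_NC] at h4
  rw [h.card_zs hp hP hs] at h3
  rw [h.card_NC] at h2
  have h5 := card_subgroup_dvd_card ρ.range
  rw [card_GO10, show Nat.card ρ.range = {t | ∃ k ∈ 𝐍[h.EE], k * z * k⁻¹ = t}.ncard * 44590694400 by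
    omega] at h5
  have k1 : {t | ∃ k ∈ 𝐍[h.EE], k * z * k⁻¹ = t} ⊆ h.EE := by
    rintro _ ⟨k, hk, rfl⟩
    exact (mem_normalizer_iff.1 hk z).1 h.z_memE
  have k2 : {t | ∃ k ∈ 𝐍[h.EE] ⊓ centralizer {z}, k * (g * z * g⁻¹) * k⁻¹ = t} ⊆
      {t | ∃ k ∈ 𝐍[h.EE], k * z * k⁻¹ = t} := by
    rintro _ ⟨k, hk, rfl⟩
    exact ⟨k * g, mul_mem hk.1 hg, by group⟩
  have h6 := eq_527 h5 ((Set.ncard_le_ncard k1).trans_eq ((Nat.card_coe_set_eq _).symm.trans h.card_EE))
    (Set.ncard_le_ncard k2) (dvd_90 h2 h3) fun e => by rw [e] at h2; omega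
  have h7 : Nat.card ρ.range = Nat.card (Omega (ZMod 2) (quadFormPlus 5 (ZMod 2))) := by
    rw [card_Op10]; omega
  have h8 : ρ.range.index = 2 := by
    have := ρ.range.card_mul_index
    rw [h7, card_Op10, card_GO10] at this
    omega
  have h9 : Omega (ZMod 2) (quadFormPlus 5 (ZMod 2)) = ρ.range := eq_of_le_of_card_ge (by
    rw [Omega, _root_.commutator_def, commutator_le]
    intro a _ b _
    rw [commutatorElement_def, mul_assoc, mul_mem_iff_of_index_two h8, mul_mem_iff_of_index_two h8,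
      mul_mem_iff_of_index_two h8, inv_mem_iff, inv_mem_iff]) h7.le
  refine ⟨h6, ρ.codRestrict _ fun c => h9 ▸ ⟨c, rfl⟩, fun y => ?_, by
    rw [MonoidHom.ker_codRestrict, hk]⟩
  obtain ⟨c, hc⟩ := h9.le y.2
  exact ⟨c, Subtype.ext hc⟩

end Su

end Cfsg.Agent.MonL.V10
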