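import Cfsg.Agent.MonL.V10f
import Cfsg.Agent.Grp.PFrattini

/-! The maximal 2-local subgroup `2^(10+16).Ω₁₀⁺(2)` of the Monster. -/

set_option autoImplicit false

namespace Cfsg.Agent.MonL.V10

open Subgroup Cfsg Cfsg.Spor Cfsg.Agent.Spor Cfsg.Agent.Spor.Leech Cfsg.Agent.XSC.C1
  Cfsg.Agent.TT Cfsg.Agent.LES Cfsg.Agent.Spor.Co1Cent Cfsg.Agent.Mon Cfsg.Agent.LES.Co
open scoped commutatorElement

local notation "𝐨" => setOf' 5279
local notation "𝐂[" x "]" => centralizer (SetLike.coe (x : Subgroup _))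
local notation "𝐍[" x "]" => normalizer (SetLike.coe (x : Subgroup _))

variable {G : Type} [Group G] [Finite G] {z : G} {Q : Subgroup G}
  {π : centralizer ({z} : Set G) →* Co1} {ψ : leechLattice → G} {u : centralizer ({z} : Set G)}

namespace Su

variable (h : Su z Q π ψ u)
include h

theorem conj_E {c x : G} (hc : c ∈ 𝐍[h.EE]) (hx : x ∈ h.EE) : c * x * c⁻¹ ∈ h.EE :=
  (mem_normalizer_iff.1 hc x).1 hx

theorem eqv_mem {x : G} (e : Eqv z x 1) : x ∈ h.EE := e.mem h.z_memE (one_mem _)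

/-- elements of `O` centralizing `X` modulo `E` -/
def cm (X : Subgroup G) (hX : X ≤ 𝐂[h.EE]) : Subgroup G where
  carrier := {a | a ∈ 𝐂[h.EE] ∧ ∀ y ∈ X, ⁅a, y⁆ ∈ h.EE}
  one_mem' := ⟨one_mem _, fun y _ => by simpa using one_mem _⟩
  mul_mem' := fun {a b} ha hb => ⟨mul_mem ha.1 hb.1, fun y hy => by
    rw [show ⁅a * b, y⁆ = a * ⁅b, y⁆ * a⁻¹ * ⁅a, y⁆ by group]
    exact mul_mem (h.conj_E (centralizer_le_normalizer _ ha.1) (hb.2 y hy)) (ha.2 y hy)⟩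
  inv_mem' := fun {a} ha => ⟨inv_mem ha.1, fun y hy => by
    rw [show ⁅a⁻¹, y⁆ = a⁻¹ * ⁅a, y⁆⁻¹ * a⁻¹⁻¹ by group]
    exact h.conj_E (inv_mem (centralizer_le_normalizer _ ha.1)) (inv_mem (ha.2 y hy))⟩

theorem conj_cm {X : Subgroup G} {hX : X ≤ 𝐂[h.EE]} {c x : G} (hc : c ∈ 𝐍[h.EE])
    (e : ∀ y ∈ X, c⁻¹ * y * c⁻¹⁻¹ ∈ X) (hx : x ∈ h.cm X hX) : c * x * c⁻¹ ∈ h.cm X hX :=
  ⟨conj_mem_cent hc hx.1, fun y hy => by
    rw [show ⁅c * x * c⁻¹, y⁆ = c * ⁅x, c⁻¹ * y * c⁻¹⁻¹⁆ * c⁻¹ by group]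
    exact h.conj_E hc (hx.2 _ (e y hy))⟩

theorem comm_Y {a y : G} (ha : a ∈ 𝐂[h.EE]) (hy : y ∈ Q ⊓ 𝐂[h.EE]) : ⁅a, y⁆ ∈ h.EE := by
  have hc : setOf' 11952160 ∈ GC := setOf'_mem_codeSets (by decide +kernel)
  have hd : Disjoint (setOf' 11952160) 𝐨 := by decide +kernel
  obtain ⟨b, hb, e⟩ := h.exists_lift ⟨sgn _ hc, fun v hv => Subtype.ext (funext fun i => by
    rw [sgn_smul]
    split_ifs with hi
    exacts [by rw [ng_iff.1 hv i (Finset.disjoint_left.1 hd hi), neg_zero], rfl]), rfl⟩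
  have fx : ∀ {y v}, y ∈ 𝐂[h.EE] → Eqv z y (ψ v) → ∃ w, v - eps • v = w + w := fun hy hv =>
    let ⟨w, hw⟩ := h.mon.congr_of_comm h.ue hv (hy _ h.u_mem)
    ⟨-w, by rw [← neg_add, ← hw, neg_sub]⟩
  have ne : ∀ {d} (hd : d ∈ GC), d ≠ setOf' 11952160 → dᶜ ≠ setOf' 11952160 →
      π b ≠ (sgn d hd : Co0) := fun {d} hd h1 h2 a => by
    rcases mk_eq_mk_Co1.1 (e.symm.trans a) with a | a
    exacts [h1 (sgn_inj a).symm, h2 (sgn_inj (a.trans (negOne_mul_sgn hd))).symm]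
  refine (h.fill (Z := h.cm _ inf_le_right) (fun _ => And.left) (fun c hc hz x => h.conj_cm hc
    fun y hy => ⟨h.mon.lx.norm _ (comm_inv_left hz) _ hy.1, conj_mem_cent (inv_mem hc) hy.2⟩)
    (fun x hx => ⟨hx.2, fun y hy => h.eqv_mem ?_⟩) ⟨h.EE_le_O h.u_mem, fun y hy => ?_⟩ (a := b)
    ⟨hb, fun y hy => h.KK_le_EE ?_⟩ ?_ (ne o0_GC (by decide +kernel) (by decide +kernel)) ?_ ha).2 y hy
  · rcases h.toIf0.xs.conj hx.1 hy.1 with a | a <;> rw [commutatorElement_def, a]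
    exacts [Or.inl (mul_inv_cancel _), Or.inr (by
      rw [h.mon.lx.z_comm _ hy.1, mul_inv_cancel_right, one_mul])]
  · rw [commutatorElement_eq_one_iff_mul_comm.2 (hy.2 _ h.u_mem)]; exact one_mem _
  · obtain ⟨v, hv⟩ := h.mon.onto y hy.1
    have := h.toIf0.comm_eqv' e.symm hv
    refine h.mem_K_of_comm (h.mon.mem_of_eqv this) fun x hx => ?_
    obtain ⟨w, hw⟩ := h.mon.onto x hx.1
    exact ((h.mon.comm_iff this hw).2 (dot_sgn hc hd (fx hy.2 hv) (fx hx.2 hw))).symm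
  · simpa only [sgn_empty, QuotientGroup.mk_one] using
      ne GC_empty (by decide +kernel) (by decide +kernel)
  · rw [e, ← map_mul, sgn_sq, map_one]

theorem elem {a : G} (ha : a ∈ 𝐂[h.EE]) : a * a ∈ h.EE ∧ ∀ b ∈ 𝐂[h.EE], ⁅a, b⁆ ∈ h.EE := by
  let Z : Subgroup G :=
    { carrier := {x | x ∈ h.cm _ le_rfl ∧ x * x ∈ h.EE}
      one_mem' := ⟨one_mem _, by simpa using one_mem _⟩
      mul_mem' := fun {a b} ha hb => ⟨mul_mem ha.1 hb.1, by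
        rw [show a * b * (a * b) = a * a * ⁅a⁻¹, b⁆ * (b * b) by group]
        exact mul_mem (mul_mem ha.2 ((inv_mem ha.1).2 b hb.1.1)) hb.2⟩
      inv_mem' := fun ha => ⟨inv_mem ha.1, by rw [← mul_inv_rev]; exact inv_mem ha.2⟩ }
  have h1 : ∀ c ∈ 𝐍[h.EE], ∀ x ∈ Z, c * x * c⁻¹ ∈ Z := fun c hc x hx =>
    ⟨h.conj_cm hc (fun y hy => conj_mem_cent (inv_mem hc) hy) hx.1, by
      rw [conj_mul]; exact h.conj_E hc hx.2⟩
  have h2 : Q ⊓ 𝐂[h.EE] ≤ Z := fun y hy => ⟨⟨hy.2, fun b hb => by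
    rw [← commutatorElement_inv]; exact inv_mem (h.comm_Y hb hy)⟩,
    h.eqv_mem ((h.toIf0.xs.sq hy.1).imp_right fun e => e.trans (one_mul z).symm)⟩
  obtain ⟨g, hg, P, hp, hP, -⟩ := h.exists_move
  let D := (Q ⊓ 𝐂[h.EE]).map (MulAut.conj g).toMonoidHom
  have h3 : D ≤ Z := by rintro _ ⟨y, hy, rfl⟩; exact h1 g hg y (h2 hy)
  have h4 : D ≤ P := by rintro _ ⟨y, hy, rfl⟩; exact (hp.compat g rfl y).1 hy.1
  have h5 : ∀ x ∈ D, x ∈ centralizer ({z} : Set G) := fun x hx => h.O_le_C (h3 hx).1.1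
  obtain ⟨b, hb, b1, b2⟩ : ∃ b, ∃ hb : b ∈ D, π ⟨b, h5 b hb⟩ ≠ 1 ∧ π ⟨b, h5 b hb⟩ ≠ eps := by
    by_contra! e
    have k1 := card_le_two_mul_of_mul_mem (A := D) (B := D ⊓ Q) inf_le_left fun x hx y hy a b =>
      ⟨mul_mem hx hy, (h.mon.ker (⟨x, h5 x hx⟩ * ⟨y, h5 y hy⟩)).1 (by
        rw [map_mul, e x hx fun c => a ⟨hx, (h.mon.ker _).1 c⟩,
          e y hy fun c => b ⟨hy, (h.mon.ker _).1 c⟩, lxE.z_sq])⟩
    have k2 := card_le_of_le (show D ⊓ Q ≤ Q ⊓ P from le_inf inf_le_right (inf_le_left.trans h4))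
    rw [h.mon.card_E hp hP] at k2
    rw [card_map_of_injective (MulAut.conj g).injective, h.card_Y] at k1
    omega
  have := h.fill (Z := Z) (fun _ hx => hx.1.1) (fun c hc _ => h1 c hc) h2
    ⟨⟨h.EE_le_O h.u_mem, fun y hy => by
      rw [commutatorElement_eq_one_iff_mul_comm.2 (hy _ h.u_mem)]; exact one_mem _⟩,
      h.uu ▸ one_mem _⟩ (h3 hb) b1 b2 (by
      rw [← map_mul, h.mon.ker]
      rcases hp.hP.sq (h4 hb) with e | e <;> rw [coe_mul, e]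
      exacts [one_mem _, hp.s_mem]) ha
  exact ⟨this.2, this.1.2⟩

theorem commutator_O : ⁅𝐂[h.EE], 𝐂[h.EE]⁆ = h.EE := by
  have h1 : ⁅𝐂[h.EE], 𝐂[h.EE]⁆ ≤ h.EE := commutator_le.2 fun a ha => (h.elem ha).2
  have h2 : z ∈ ⁅𝐂[h.EE], 𝐂[h.EE]⁆ := by
    by_contra e
    have := card_le_of_le (show Q ⊓ 𝐂[h.EE] ≤ h.KK from fun x hx => h.mem_K_of_comm hx.1
      fun y hy => by_contra fun a => e (by
        have := commutator_mem_commutator hy.2 hx.2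
        rwa [commutatorElement_def, h.toIf0.xs.conj_of_ne hy.1 hx.1 a, h.mon.lx.z_comm _ hx.1,
          mul_inv_cancel_right] at this))
    rw [h.card_Y, h.card_KK] at this
    omega
  have h3 := Set.ncard_le_ncard (show {t | ∃ k ∈ 𝐍[h.EE], k * z * k⁻¹ = t} ⊆
      (⁅𝐂[h.EE], 𝐂[h.EE]⁆ : Subgroup G) from by
    rintro _ ⟨k, hk, rfl⟩
    have : (𝐂[h.EE]).map (MulAut.conj k).toMonoidHom ≤ 𝐂[h.EE] := by
      rintro _ ⟨x, hx, rfl⟩; exact conj_mem_cent hk hx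
    exact commutator_mono this this ((map_commutator _ _ _).le ⟨z, h2, rfl⟩))
  rw [h.exists_rho.1, ← Nat.card_coe_set_eq] at h3
  obtain ⟨k, hk⟩ := card_dvd_of_le h1
  refine eq_of_le_of_card_ge h1 ?_
  rw [h.card_EE] at hk ⊢
  have : k < 2 := by
    by_contra e
    nlinarith [show 527 ≤ Nat.card (⁅𝐂[h.EE], 𝐂[h.EE]⁆ : Subgroup G) from h3]
  interval_cases k <;> omega

theorem shape : ∃ (E N : Subgroup G) (O : Subgroup N), IsElementaryAbelian 2 E ∧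
    Nat.card E = 2 ^ 10 ∧ N = normalizer (E : Set G) ∧ O = pCore 2 N ∧ IsSpecial 2 O ∧
    Nat.card O = 2 ^ 26 ∧ (center O).map O.subtype = E.subgroupOf N ∧
    O = centralizer (E.subgroupOf N : Set N) ∧ ∃ _ : O.Normal,
      Nonempty (N ⧸ O ≃* Omega (ZMod 2) (quadFormPlus 5 (ZMod 2))) := by
  obtain ⟨-, ρ, h1, h2⟩ := h.exists_rho
  have hN := centralizer_le_normalizer (h.EE : Set G)
  have h3 : Nat.card ρ.ker = 2 ^ 26 := by rw [h2, Grp.card_subgroupOf_of_le hN, h.card_O]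
  have h4 : IsPGroup 2 ρ.ker := IsPGroup.of_card h3
  have h5 : ∀ x : ρ.ker, x ∈ center ρ.ker ↔ (x.1 : G) ∈ h.EE := fun x =>
    ⟨fun hx => h.mem_E_of_cent (h2.le x.2) fun y hy => congrArg (fun t : ρ.ker => (t.1 : G))
      (mem_center_iff.1 hx ⟨⟨y, hN hy⟩, h2.ge hy⟩), fun e => mem_center_iff.2 fun y =>
      Subtype.ext (Subtype.ext (h2.le y.2 _ e).symm)⟩
  have h6 : commutator ρ.ker = center ρ.ker := by
    let i : ρ.ker →* G := (𝐍[h.EE]).subtype.comp ρ.ker.subtype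
    have : (⊤ : Subgroup ρ.ker).map i = 𝐂[h.EE] := le_antisymm
      (by rintro _ ⟨x, -, rfl⟩; exact h2.le x.2) fun y hy => ⟨⟨⟨y, hN hy⟩, h2.ge hy⟩, trivial, rfl⟩
    have e : (commutator ρ.ker).map i = h.EE :=
      (map_commutator _ _ i).trans (by rw [this, h.commutator_O])
    ext x
    exact (mem_map_iff_mem (f := i) ((subtype_injective _).comp (subtype_injective _))).symm.trans
      ((SetLike.ext_iff.1 e _).trans (h5 x).symm)
  haveI := simple_Op10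
  refine ⟨h.EE, _, ρ.ker, ⟨⟨⟨fun a b => Subtype.ext (h.comm_EE a.2 b.2)⟩⟩, fun a ha => by
    rw [pow_two, h.EE_sq ha]⟩, h.card_EE, rfl, (Comp.pCore_eq_ker ρ h1
      (LXO.not_two card_Op10 (by norm_num) (by norm_num)) h4).symm,
    ⟨h4, le_antisymm (Grp.PFrattini.frattini_le (p := 2) h6.le fun g => (h5 _).2 (by
      rw [pow_two]; exact (h.elem (h2.le g.2)).1)) (h6 ▸ Grp.PFrattini.commutator_le_frattini h4),
      h6⟩, h3, Subgroup.ext fun n => ⟨?_, fun e => ⟨⟨n, h2.ge (h.EE_le_O e)⟩, (h5 _).2 e, rfl⟩⟩,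
    h2.trans (Subgroup.ext fun n => ⟨fun e x hx => Subtype.ext (e _ hx), fun e x hx =>
      congrArg Subtype.val (e ⟨x, hN (h.EE_le_O hx)⟩ hx)⟩), inferInstance,
    ⟨QuotientGroup.quotientKerEquivOfSurjective ρ h1⟩⟩
  rintro ⟨x, hx, rfl⟩
  exact (h5 x).1 hx

end Su

theorem exists_su (h : If0 z Q π ψ) : ∃ u, Su z Q π ψ u :=
  let ⟨u, a, b, c⟩ := h.exists_over ((isA_sgn o0_GC).2 (Or.inl o0_card))
  ⟨u, h, a, b, c⟩

end Cfsg.Agent.MonL.V10
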